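import Cfsg.Agent.FS.Main

/-! The explicit plus and minus type forms as nondegenerate quadratic forms. -/

set_option autoImplicit false

namespace Cfsg.Agent.FS

open QuadraticMap

variable {F : Type*} [Field F]

theorem exists_plus (n : ℕ) : ∃ Q : QuadraticForm F (Fin n ⊕ Fin n → F), ⇑Q = quadFormPlus n F ∧
    ∀ x, (∀ y, polar Q x y = 0) → x = 0 := by
  have e : ⇑(∑ i : Fin n, (proj (.inl i) (.inr i) : QuadraticForm F (Fin n ⊕ Fin n → F))) =
      quadFormPlus n F := funext fun x => by simp [quadFormPlus]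
  refine ⟨_, e, fun x h => ?_⟩
  have p : ∀ y, polar (quadFormPlus n F) x y =
      ∑ i, x (.inl i) * y (.inr i) + ∑ i, x (.inr i) * y (.inl i) := fun y => by
    simp only [polar, quadFormPlus, ← Finset.sum_sub_distrib, ← Finset.sum_add_distrib, Pi.add_apply]
    exact Finset.sum_congr rfl fun _ _ => by ring
  rw [e] at h
  ext (i | i)
  · simpa [p, Pi.single_apply] using h (Pi.single (.inr i) 1)
  · simpa [p, Pi.single_apply] using h (Pi.single (.inl i) 1)

theorem exists_minus [Finite F] [CharP F 2] (n : ℕ) (a b : F)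
    (h0 : ∀ z₁ z₂ : F, z₁ ^ 2 + a * z₁ * z₂ + b * z₂ ^ 2 = 0 → z₁ = 0 ∧ z₂ = 0) :
    ∃ Q : QuadraticForm F ((Fin n ⊕ Fin n) ⊕ Fin 2 → F), ⇑Q = quadFormMinus n F a b ∧
      ∀ x, (∀ y, polar Q x y = 0) → x = 0 := by
  have a0 : a ≠ 0 := fun e => by
    obtain ⟨r, rfl⟩ := FiniteField.isSquare_of_char_two (ringChar.eq F 2) b
    simpa using (h0 r 1 (by rw [e]; linear_combination r * r * CharTwo.two_eq_zero (R := F))).2
  have e : ⇑(∑ i : Fin n, proj (.inl (.inl i)) (.inl (.inr i)) + (proj (.inr 0) (.inr 0) +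
      a • proj (.inr 0) (.inr 1) + b • proj (.inr 1) (.inr 1)) :
      QuadraticForm F ((Fin n ⊕ Fin n) ⊕ Fin 2 → F)) = quadFormMinus n F a b :=
    funext fun x => by simp [quadFormMinus, _root_.sq, mul_assoc]
  refine ⟨_, e, fun x h => ?_⟩
  have p : ∀ y, polar (quadFormMinus n F a b) x y = ∑ i, x (.inl (.inl i)) * y (.inl (.inr i)) +
      ∑ i, x (.inl (.inr i)) * y (.inl (.inl i)) + a * (x (.inr 0) * y (.inr 1) +
        x (.inr 1) * y (.inr 0)) := fun y => by
    simp only [polar, quadFormMinus, Pi.add_apply, mul_add, add_mul, Finset.sum_add_distrib,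
      mul_comm (y _) (x _)]
    linear_combination (x (.inr 0) * y (.inr 0) + b * x (.inr 1) * y (.inr 1)) *
      CharTwo.two_eq_zero (R := F)
  rw [e] at h
  ext ((i | i) | i)
  · simpa [p, Pi.single_apply] using h (Pi.single (.inl (.inr i)) 1)
  · simpa [p, Pi.single_apply] using h (Pi.single (.inl (.inl i)) 1)
  · fin_cases i
    · simpa [p, Pi.single_apply, a0] using h (Pi.single (.inr 1) 1)
    · simpa [p, Pi.single_apply, a0] using h (Pi.single (.inr 0) 1)

end Cfsg.Agent.FS
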