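import Cfsg.Agent.FS.Dk

/-! The Dickson invariant is the parity of the rank of `g + 1`. -/

set_option autoImplicit false

namespace Cfsg.Agent.FS

open Module QuadraticMap LinearMap

variable {K U : Type*} [Field K] [AddCommGroup U] [Module K U]

/-- nondegeneracy of the polar form -/
def NDg (Q : QuadraticForm K U) : Prop := ∀ x, (∀ y, Q.polarBilin x y = 0) → x = 0

/-- the orthogonal group -/
def Og (Q : QuadraticForm K U) : Subgroup (End K U)ˣ where
  carrier := {g | ∀ y, Q (g.1 y) = Q y}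
  one_mem' _ := rfl
  mul_mem' h h' y := (h _).trans (h' y)
  inv_mem' {g} h y := by rw [← h, ← End.mul_apply, Units.mul_inv]; rfl

/-- the rank of `g + 1` -/
noncomputable def rk (g : (End K U)ˣ) : ℕ := finrank K (range (g.1 + 1))

variable {Q : QuadraticForm K U} {g h : (End K U)ˣ}

theorem B_comm (x y : U) : Q.polarBilin x y = Q.polarBilin y x := polar_comm Q x y

theorem Q_add (x y : U) : Q (x + y) = Q x + Q y + Q.polarBilin x y := QuadraticMap.map_add Q x y

theorem Og.iso (h : g ∈ Og Q) (x y : U) : Q.polarBilin (g.1 x) (g.1 y) = Q.polarBilin x y := by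
  rw [polarBilin_apply_apply, QuadraticMap.polar, ← map_add, h, h, h]; rfl

theorem Og.adj (h : g ∈ Og Q) (x y : U) : Q.polarBilin (g.1 x) y = Q.polarBilin x (g⁻¹.1 y) := by
  rw [← Og.iso h x, ← End.mul_apply, Units.mul_inv]; rfl

theorem NDg.ext (nd : NDg Q) {x y : U} (h : ∀ z, Q.polarBilin x z = Q.polarBilin y z) : x = y :=
  sub_eq_zero.1 (nd _ fun z => by rw [map_sub, LinearMap.sub_apply, h, sub_self])

theorem NDg.inj (nd : NDg Q) : Function.Injective Q.polarBilin := fun _ _ e =>
  nd.ext fun z => by rw [e]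

theorem NDg.nondeg (nd : NDg Q) : LinearMap.BilinForm.Nondegenerate Q.polarBilin :=
  ⟨nd, fun x h => nd x fun y => by rw [B_comm, h]⟩

variable [CharP K 2]

variable (K) in
include K in
theorem two' (x : U) : x + x = 0 := by rw [← two_smul K, CharTwo.two_eq_zero, zero_smul]

theorem two'' (f : End K U) : f + f = 0 := two' K f

theorem B_self (x : U) : Q.polarBilin x x = 0 := by simp [CharTwo.two_eq_zero]

theorem Og.q_N (h : g ∈ Og Q) (y : U) : Q ((g.1 + 1) y) = Q.polarBilin ((g.1 + 1) y) y := by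
  rw [LinearMap.add_apply, End.one_apply, Q_add, h, map_add, LinearMap.add_apply, B_self,
    CharTwo.add_self_eq_zero, zero_add, add_zero]

variable (Q) in
/-- the reflection in `u` -/
noncomputable def rf (u : U) : (End K U)ˣ :=
  have : (1 + ((Q u)⁻¹ • Q.polarBilin u).smulRight u) * (1 + ((Q u)⁻¹ • Q.polarBilin u).smulRight u) =
      (1 : End K U) := LinearMap.ext fun y => by
    simp [-polarBilin_apply_apply, B_self, add_assoc, two' K]
  ⟨_, _, this, this⟩

theorem rf_apply (u y : U) : (rf Q u).1 y = y + ((Q u)⁻¹ * Q.polarBilin u y) • u := rfl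

theorem rf_inv (u : U) : (rf Q u)⁻¹ = rf Q u := rfl

theorem rf_mem (u : U) : rf Q u ∈ Og Q := fun y => by
  rw [rf_apply, Q_add, Q.map_smul, map_smul, B_comm y, smul_eq_mul, smul_eq_mul]
  by_cases h : Q u = 0
  · simp [h]
  · field_simp
    linear_combination (Q.polarBilin u y) ^ 2 * CharTwo.two_eq_zero (R := K)

theorem rk_rf (nd : NDg Q) {u : U} (hu : Q u ≠ 0) : rk (rf Q u) = 1 := by
  have u0 : u ≠ 0 := fun e => hu (by simp [e])
  obtain ⟨y, hy⟩ := not_forall.1 (mt (nd u) u0)
  have e : ∀ y, ((rf Q u).1 + 1) y = ((Q u)⁻¹ * Q.polarBilin u y) • u := fun y => by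
    rw [LinearMap.add_apply, rf_apply, End.one_apply, add_right_comm, two' K, zero_add]
  rw [rk, ← finrank_span_singleton (K := K) u0]
  refine congrArg (fun W : Submodule K U => finrank K W) (le_antisymm ?_ ?_)
  · rintro _ ⟨y, rfl⟩
    exact Submodule.mem_span_singleton.2 ⟨_, (e y).symm⟩
  · exact (Submodule.span_singleton_le_iff_mem _ _).2 ((Submodule.smul_mem_iff _
      (mul_ne_zero (inv_ne_zero hu) hy)).1 ⟨y, e y⟩)

variable [FiniteDimensional K U]

omit [CharP K 2] in
theorem NDg.exists_M (nd : NDg Q) (β : U →ₗ[K] U →ₗ[K] K) :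
    ∃ M : End K U, ∀ x y, Q.polarBilin (M x) y = β x y :=
  ⟨(LinearMap.BilinForm.toDual _ nd.nondeg).symm.toLinearMap ∘ₗ β, fun x y =>
    LinearMap.congr_fun ((LinearMap.BilinForm.toDual _ nd.nondeg).apply_symm_apply (β x)) y⟩

omit [CharP K 2] in
theorem NDg.exists_M' (nd : NDg Q) : ∃ M : End K U, ∀ x, Q.polarBilin (M x) x = Q x := by
  obtain ⟨β, e⟩ := LinearMap.BilinMap.toQuadraticMap_surjective Q
  obtain ⟨M, hM⟩ := nd.exists_M β
  exact ⟨M, fun x => by rw [hM, ← e]; rfl⟩

omit [FiniteDimensional K U] in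
theorem M_adj {M : End K U} (hM : ∀ x, Q.polarBilin (M x) x = Q x) (x y : U) :
    Q.polarBilin (M x) y = Q.polarBilin x ((M + 1) y) := by
  have := hM (x + y)
  simp only [map_add, LinearMap.add_apply, hM, Q_add, End.one_apply, B_comm (M y) x] at this ⊢
  linear_combination this - Q.polarBilin x (M y) * CharTwo.two_eq_zero (R := K)

theorem NDg.even (nd : NDg Q) : Even (finrank K U) := by
  obtain ⟨M, hM⟩ := nd.exists_M'
  have := trace_adj _ nd.inj (M_adj hM)
  rw [map_add, trace_one, left_eq_add] at this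
  exact even_iff_two_dvd.2 ((CharP.cast_eq_zero_iff K 2 _).1 this)

theorem tr_rk (nd : NDg Q) {M : End K U} (hM : ∀ x, Q.polarBilin (M x) x = Q x) (hg : g ∈ Og Q) :
    trace K U (M * (g⁻¹.1 * M * g.1 + M)) = rk g := by
  set N := g.1 + 1 with hN
  set N' := g⁻¹.1 + 1 with hN'
  have aN : ∀ x y, Q.polarBilin (N' x) y = Q.polarBilin x (N y) := fun x y => by
    simp [-polarBilin_apply_apply, hN, hN', Og.adj ((Og Q).inv_mem hg)]
  have aN' : ∀ x y, Q.polarBilin (N x) y = Q.polarBilin x (N' y) := fun x y => by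
    rw [B_comm, ← aN, B_comm]
  obtain ⟨s, hs⟩ := N.rangeRestrict.exists_rightInverse_of_surjective N.range_rangeRestrict
  obtain ⟨p, hp⟩ := (range N).subtype.exists_leftInverse_of_injective (range N).ker_subtype
  have pr : IsProj (range N) (N * (s ∘ₗ p)) := ⟨fun x => ⟨_, rfl⟩, fun x hx =>
    (congrArg Subtype.val (LinearMap.congr_fun hs (p x))).trans
      (congrArg Subtype.val (LinearMap.congr_fun hp ⟨x, hx⟩))⟩
  generalize s ∘ₗ p = G at pr
  have e1 : N * G * N = N := LinearMap.ext fun x => pr.map_id _ ⟨x, rfl⟩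
  obtain ⟨G', aG⟩ := exists_adj _ nd.inj G
  have n1 : N * g⁻¹.1 = N' := by rw [hN, hN', add_mul, Units.mul_inv, one_mul, add_comm]
  have n2 : g.1 * N' = N := by rw [hN, hN', mul_add, Units.mul_inv, mul_one, add_comm]
  have n3 : N' * N = N + N' := by
    rw [hN, hN', add_mul, mul_add, Units.inv_mul, one_mul, mul_one]; abel
  have e2 : N * G * N' = N' := by rw [← n1, ← mul_assoc, e1]
  have e3 : N * G' * N' = N := by
    have : N' * G' * N' = N' := LinearMap.ext fun x => nd.ext fun y => by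
      simp only [End.mul_apply, aN, aG]; exact congrArg _ (LinearMap.congr_fun e1 y)
    rw [← n2, mul_assoc, mul_assoc, ← mul_assoc N', this]
  obtain ⟨A, hA⟩ : ∃ A, A + N = N' * M * N := ⟨N' * M * N + N, by rw [add_assoc, two'', add_zero]⟩
  have hA' : A = N' * M * N + N := by rw [← hA, add_assoc, two'', add_zero]
  have alt : ∀ x, Q.polarBilin (A x) x = 0 := fun x => by
    rw [hA', LinearMap.add_apply, map_add, LinearMap.add_apply, End.mul_apply, End.mul_apply, aN, hM,
      Og.q_N hg, CharTwo.add_self_eq_zero]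
  have a1 : A * G * N = A := by
    rw [hA', add_mul, add_mul, e1, mul_assoc _ N, mul_assoc (N' * M), e1]
  have a2 : N * G * A = A := by rw [hA', mul_add, e1, ← mul_assoc, ← mul_assoc, e2]
  have t1 := trace_alt CharTwo.two_eq_zero _ B_comm nd.nondeg alt (T := G * A * G') fun x => by
    rw [End.mul_apply, End.mul_apply, B_comm, ← aG, B_comm, alt]
  have t2 : trace K U (M * N' * M) = trace K U (M * M * N) + trace K U N := by
    rw [trace_mul_comm, ← mul_assoc, trace_adj _ nd.inj (g := N * ((M + 1) * (M + 1))) fun x y => by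
      simp only [End.mul_apply, M_adj hM, aN], trace_mul_comm, ← map_add]
    congr 1
    simp only [add_mul, mul_add, one_mul, mul_one]
    rw [add_assoc, ← add_assoc (M * N), two'', zero_add]
  have t3 : trace K U (M * (N' * M * N)) = trace K U ((A + N) * G * ((A + N) * G')) := by
    rw [hA, show N' * M * N * G * (N' * M * N * G') = N' * (M * (N * G * N') * M * (N * G')) by
      simp only [mul_assoc], trace_mul_comm K N', e2, mul_assoc _ _ N', e3]
    simp only [mul_assoc]
  have t4 : trace K U (N' * G') = rk g := by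
    rw [trace_adj _ nd.inj (g := G * N) fun x y => by simp only [End.mul_apply, aN, aG],
      trace_mul_comm, pr.trace]; rfl
  have t5 : trace K U (N * G') + trace K U (N' * G') = trace K U N := by
    rw [← map_add, ← add_mul, ← n3, mul_assoc, trace_mul_comm, e3]
  have : g⁻¹.1 * M * g.1 + M = N' * M * N + N' * M + M * N := by
    have h1 : g.1 = N + 1 := by rw [hN, add_assoc, two'', add_zero]
    have h2 : g⁻¹.1 = N' + 1 := by rw [hN', add_assoc, two'', add_zero]
    rw [h1, h2]
    simp only [add_mul, mul_add, one_mul, mul_one, add_assoc, two'', add_zero]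
    abel
  rw [this, mul_add, mul_add, map_add, map_add, t3, ← mul_assoc M N', ← mul_assoc M M, t2]
  simp only [add_mul, mul_add, map_add, ← mul_assoc, a1, a2, e1] at t1 ⊢
  linear_combination t1 + t5 - t4 + (trace K U (A * G') + trace K U (M * M * N) + trace K U N - rk g) *
    CharTwo.two_eq_zero (R := K)

theorem rk_mul (nd : NDg Q) (hg : g ∈ Og Q) (hh : h ∈ Og Q) : rk (g * h) ≡ rk g + rk h [MOD 2] := by
  obtain ⟨M, hM⟩ := nd.exists_M'
  have alt : ∀ g ∈ Og Q, ∀ x, Q.polarBilin ((g⁻¹.1 * M * g.1 + M) x) x = 0 := fun g h x => by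
    rw [LinearMap.add_apply, map_add, LinearMap.add_apply, End.mul_apply, End.mul_apply,
      Og.adj ((Og Q).inv_mem h), inv_inv, hM, hM, h, CharTwo.add_self_eq_zero]
  rw [← CharP.natCast_eq_natCast K, Nat.cast_add, ← tr_rk nd hM hg, ← tr_rk nd hM hh,
    ← tr_rk nd hM (mul_mem hg hh)]
  have := trace_alt CharTwo.two_eq_zero _ B_comm nd.nondeg (alt h⁻¹ (inv_mem hh)) (alt g hg)
  have e : (g * h)⁻¹.1 * M * (g * h).1 + M =
      h⁻¹.1 * ((g⁻¹.1 * M * g.1 + M) * h.1) + (h⁻¹.1 * M * h.1 + M) := by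
    rw [mul_inv_rev, add_mul, mul_add, add_assoc, ← add_assoc (_ * (M * _)), ← mul_assoc _ M, two'',
      zero_add]
    simp only [Units.val_mul, mul_assoc]
  rw [e, mul_add, map_add, ← mul_assoc, ← mul_assoc, trace_mul_comm, add_left_inj]
  rw [inv_inv, add_mul, map_add] at this
  simp only [← mul_assoc]
  linear_combination this - trace K U (M * (g⁻¹.1 * M * g.1 + M)) * CharTwo.two_eq_zero (R := K)

theorem rk_even (nd : NDg Q) (T : Submodule K U) (hT : ∀ t ∈ T, Q t = 0) (hg : g ∈ Og Q)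
    (h1 : ∀ t ∈ T, g.1 t ∈ T) (h2 : ∀ y, (∀ t ∈ T, Q.polarBilin t y = 0) → g.1 y + y ∈ T) :
    Even (rk g) := by
  obtain ⟨β, e⟩ := LinearMap.BilinMap.toQuadraticMap_surjective Q
  have hβ : ∀ x, β x x = Q x := fun x => by rw [← e]; rfl
  obtain ⟨p, hp⟩ := T.subtype.exists_leftInverse_of_injective T.ker_subtype
  let π := T.subtype ∘ₗ p
  have π1 : ∀ t ∈ T, π t = t := fun t ht => congrArg Subtype.val (LinearMap.congr_fun hp ⟨t, ht⟩)
  have π2 : ∀ y, π y ∈ T := fun y => (p y).2
  obtain ⟨M, hM⟩ := nd.exists_M (β + β ∘ₗ π + (β ∘ₗ π).flip + β.compl₁₂ π π)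
  simp only [LinearMap.add_apply, LinearMap.comp_apply, flip_apply, compl₁₂_apply] at hM
  have M1 : ∀ x, Q.polarBilin (M x) x = Q x := fun x => by
    rw [hM, hβ, hβ, hT _ (π2 x), add_zero, add_assoc, CharTwo.add_self_eq_zero, add_zero]
  have M2 : ∀ t ∈ T, M t = 0 := fun t ht => nd _ fun y => by
    have := hβ (t + π y)
    simp only [map_add, LinearMap.add_apply, hβ, hT _ ht, hT _ (π2 y), hT _ (add_mem ht (π2 y))] at this
    rw [hM, π1 t ht]
    linear_combination this + β t y * CharTwo.two_eq_zero (R := K)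
  have M3 : ∀ t ∈ T, ∀ y, Q.polarBilin t (M y) = Q.polarBilin t y := fun t ht y => by
    have := M_adj M1 t y
    rw [M2 t ht, LinearMap.add_apply, map_add] at this
    simpa [-polarBilin_apply_apply] using CharTwo.add_eq_iff_eq_add.1 this.symm
  have : (M * (g⁻¹.1 * M * g.1 + M)) ^ 2 = 0 := LinearMap.ext fun y => by
    have a : ∀ t ∈ T, Q.polarBilin t (M ((g⁻¹.1 * M * g.1 + M) y)) = 0 := fun t ht => by
      rw [M3 t ht, LinearMap.add_apply, map_add, End.mul_apply, End.mul_apply, ← Og.adj hg,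
        M3 _ (h1 t ht), M3 t ht, Og.iso hg, CharTwo.add_self_eq_zero]
    rw [_root_.sq, End.mul_apply, End.mul_apply M _ y]
    generalize M ((g⁻¹.1 * M * g.1 + M) y) = z at a
    have b : M (g.1 z) = M z := by
      rw [← add_zero (g.1 z), ← two' K z, ← add_assoc, map_add, M2 _ (h2 z a), zero_add]
    have c := h2 (g⁻¹.1 (M z)) fun t ht => by rw [← Og.adj hg, M3 _ (h1 t ht), a _ (h1 t ht)]
    rw [← End.mul_apply, Units.mul_inv, add_comm] at c
    refine M2 _ ?_
    rwa [LinearMap.add_apply, End.mul_apply, End.mul_apply, b]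
  have := (isNilpotent_trace_of_isNilpotent ⟨2, this⟩).eq_zero
  rw [tr_rk nd M1 hg] at this
  exact even_iff_two_dvd.2 ((CharP.cast_eq_zero_iff K 2 _).1 this)

end Cfsg.Agent.FS
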