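import Cfsg.Agent.FS.W2

/-! Inverting isometries with prescribed Dickson invariant: reduction and the fixed-point-free case. -/

set_option autoImplicit false

namespace Cfsg.Agent.FS

open Module QuadraticMap LinearMap

variable {F V : Type*} [Field F] [AddCommGroup V] [Module F V] [FiniteDimensional F V]
  {Q : QuadraticForm F V} {g : (End F V)ˣ}

variable (Q g) in
/-- `g` is inverted by an isometry whose Dickson invariant is half the dimension -/
def Pr : Prop := ∃ x ∈ Og Q, g * x * g = x ∧ 2 * rk x ≡ finrank F V [MOD 4]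

/-- orthogonal complement -/
abbrev pp (Q : QuadraticForm F V) (W : Submodule F V) : Submodule F V :=
  LinearMap.BilinForm.orthogonal Q.polarBilin W

theorem exists_res {W : Submodule F V} (h : ∀ w ∈ W, g.1 w ∈ W) :
    ∃ g' : (End F W)ˣ, ∀ w, (g'.1 w : V) = g.1 w := by
  obtain ⟨u, e⟩ := (isUnit_iff_ker_eq_bot (g.1.restrict h)).2 (ker_eq_bot'.2 fun w e => Subtype.ext
    (((isUnit_iff_ker_eq_bot _).1 g.isUnit ▸ congrArg Subtype.val e : (w : V) ∈ (⊥ : Submodule F V))))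
  exact ⟨u, fun w => by rw [e]; rfl⟩

theorem inv_mem_of {W : Submodule F V} (h : ∀ w ∈ W, g.1 w ∈ W) : ∀ w ∈ W, g⁻¹.1 w ∈ W := fun w hw => by
  obtain ⟨u, e⟩ := exists_res h
  have := e (u⁻¹.1 ⟨w, hw⟩)
  rw [← End.mul_apply, Units.mul_inv] at this
  rw [show w = _ from this, ← End.mul_apply, Units.inv_mul]
  exact (u⁻¹.1 _).2

theorem exists_ext {W W' : Submodule F V} (c : IsCompl W W') (x : (End F W)ˣ) (x' : (End F W')ˣ) :
    ∃ y : (End F V)ˣ, (∀ w : W, y.1 w = x.1 w) ∧ (∀ w : W', y.1 w = x'.1 w) ∧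
      rk y = rk x + rk x' := by
  have k : ∀ (x : (End F W)ˣ) (x' : (End F W')ˣ), ofIsCompl c (W.subtype ∘ₗ x.1) (W'.subtype ∘ₗ x'.1) *
      ofIsCompl c (W.subtype ∘ₗ x⁻¹.1) (W'.subtype ∘ₗ x'⁻¹.1) = (1 : End F V) := fun x x' =>
    (ofIsCompl_eq c (fun u => by simp; rw [← End.mul_apply]; simp) fun u => by
      simp; rw [← End.mul_apply]; simp).symm.trans
      (ofIsCompl_eq (φ := W.subtype) (ψ := W'.subtype) c (fun _ => rfl) fun _ => rfl)
  refine ⟨⟨_, _, k x x', k x⁻¹ x'⁻¹⟩, ofIsCompl_apply_left c, ofIsCompl_apply_right c, ?_⟩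
  have := Submodule.finrank_sup_add_finrank_inf_eq ((range (x.1 + 1)).map W.subtype)
    ((range (x'.1 + 1)).map W'.subtype)
  rw [Submodule.finrank_map_subtype_eq, Submodule.finrank_map_subtype_eq, (c.disjoint.mono
    (W.map_subtype_le _) (W'.map_subtype_le _)).eq_bot, finrank_bot, ← range_comp, ← range_comp,
    ← range_ofIsCompl c] at this
  rw [rk, rk, rk, ← this, ← ofIsCompl_eq (χ := _ + 1) c (φ := W.subtype ∘ₗ (x.1 + 1))
    (ψ := W'.subtype ∘ₗ (x'.1 + 1)) (fun u => by simp) fun u => by simp]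
  rfl

omit [FiniteDimensional F V] in
theorem refl' : LinearMap.BilinForm.IsRefl Q.polarBilin := fun x y h => by rw [B_comm, h]

omit [FiniteDimensional F V] in
theorem ndg_res {W : Submodule F V} (h : Disjoint W (pp Q W)) : NDg (Q.comp W.subtype) :=
  fun x hx => Subtype.ext (Submodule.disjoint_def.1 h x x.2 fun w hw => by
    rw [B_comm]; exact hx ⟨w, hw⟩)

theorem Pr.glue (nd : NDg Q) (hg : g ∈ Og Q) {W : Submodule F V} (h : ∀ w ∈ W, g.1 w ∈ W)
    (d : Disjoint W (pp Q W)) (ih : ∀ U : Submodule F V, U = W ∨ U = pp Q W →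
      NDg (Q.comp U.subtype) → ∀ g' ∈ Og (Q.comp U.subtype), Pr (Q.comp U.subtype) g') : Pr Q g := by
  have c := (LinearMap.BilinForm.isCompl_orthogonal_iff_disjoint refl').2 d
  have dec : ∀ y : V, ∃ (w : W) (u : pp Q W), y = w + u := fun y => by
    obtain ⟨a, ha, b, hb, rfl⟩ := Submodule.mem_sup.1 (c.sup_eq_top ▸ Submodule.mem_top (x := y))
    exact ⟨⟨a, ha⟩, ⟨b, hb⟩, rfl⟩
  obtain ⟨g₁, e₁⟩ := exists_res h
  obtain ⟨g₂, e₂⟩ := exists_res (W := pp Q W) (g := g) fun y hy w hw => by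
    rw [B_comm, Og.adj hg, B_comm]; exact hy _ (inv_mem_of h w hw)
  obtain ⟨x₁, m₁, i₁, r₁⟩ := ih W (Or.inl rfl) (ndg_res d) g₁ fun y => by simp [e₁, hg y]
  obtain ⟨x₂, m₂, i₂, r₂⟩ := ih _ (Or.inr rfl) (ndg_res (Submodule.disjoint_def.2 fun y h1 h2 =>
    nd y fun z => by
      obtain ⟨w, u, rfl⟩ := dec z
      rw [map_add, B_comm, h1 w w.2, B_comm, h2 u u.2, add_zero])) g₂ fun y => by simp [e₂, hg y]
  obtain ⟨x, f₁, f₂, r⟩ := exists_ext c x₁ x₂
  refine ⟨x, fun y => ?_, Units.ext (LinearMap.ext fun y => ?_), ?_⟩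
  · obtain ⟨w, u, rfl⟩ := dec y
    rw [map_add, f₁, f₂, Q_add, Q_add, u.2 w w.2, (x₂.1 u).2 _ (x₁.1 w).2]
    exact congrArg₂ (· + · + 0) (m₁ w) (m₂ u)
  · obtain ⟨w, u, rfl⟩ := dec y
    simp only [Units.val_mul, End.mul_apply, map_add, ← e₁, ← e₂, f₁, f₂]
    exact congrArg₂ (fun (a : W) (b : pp Q W) => (a : V) + b)
      (congrArg (·.1 w) i₁) (congrArg (·.1 u) i₂)
  · rw [r, mul_add, ← Submodule.finrank_add_eq_of_isCompl c]
    exact r₁.add r₂

theorem mkF (nd : NDg Q) {P : Type*} (p p' : P → V) (hp : Function.Surjective p)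
    (s : ∀ f, ∃ f', p' f' = p f)
    (i : ∀ f f', Q.polarBilin (p' f) (p' f') = Q.polarBilin (p f) (p f')) :
    ∃ x : (End F V)ˣ, ∀ f, x.1 (p f) = p' f := by
  have ext : ∀ {y z}, (∀ f, Q.polarBilin y (p' f) = Q.polarBilin z (p' f)) → y = z := fun h =>
    nd.ext fun u => by
      obtain ⟨f, rfl⟩ := hp u
      obtain ⟨f', e⟩ := s f
      rw [← e, h]
  let x : End F V := ⟨⟨fun y => p' (Function.surjInv hp y), fun y z => ext fun f => by
    simp [-polarBilin_apply_apply, i, Function.surjInv_eq hp]⟩, fun a y => ext fun f => by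
    simp [-polarBilin_apply_apply, i, Function.surjInv_eq hp]⟩
  obtain ⟨u, e⟩ := (isUnit_iff_ker_eq_bot x).2 (ker_eq_bot'.2 fun y hy => nd y fun z => by
    obtain ⟨f, rfl⟩ := hp z
    rw [← Function.surjInv_eq hp y, ← i, show p' _ = 0 from hy]; simp)
  exact ⟨u, fun f => ext fun f' => by
    rw [e, i]; exact (i _ _).trans (by rw [Function.surjInv_eq hp])⟩

variable [CharP F 2]

theorem two_rk_le {x : (End F V)ˣ} (h : x * x = 1) : 2 * rk x ≤ finrank F V := by
  have : range (x.1 + 1) ≤ ker (x.1 + 1) := range_le_ker_iff.2 (by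
    change (x.1 + 1) * (x.1 + 1) = 0
    rw [add_mul, mul_add, ← Units.val_mul, h]; simp [add_assoc, ← add_assoc x.1, two''])
  have h1 := Submodule.finrank_mono this
  have h2 := (x.1 + 1).finrank_range_add_finrank_ker
  rw [rk]; omega

theorem Pr.fpf [Finite F] [Finite V] (nd : NDg Q) (hg : g ∈ Og Q) (h : ker (g.1 + 1) = ⊥) : Pr Q g := by
  obtain ⟨x, i, e, s⟩ := realI nd hg
  have e' : ∀ y, g.1 (x.1 (g.1 y)) = x.1 y := fun y => congrArg (·.1 y) e
  refine ⟨x, fun y => ?_, e, ?_⟩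
  · obtain ⟨y, rfl⟩ := range_eq_top.1 (ker_eq_bot_iff_range_eq_top.1 h) y
    rw [LinearMap.add_apply, End.one_apply, map_add, Q_add, Q_add, i, ← hg (x.1 (g.1 y)), e', hg,
      CharTwo.add_self_eq_zero, CharTwo.add_self_eq_zero]
  have h1 := two_rk_le s
  have h2 := two_rk_le (x := x * g) (by rw [mul_assoc, ← mul_assoc g, e, s])
  have h3 := (x.1 + 1).finrank_range_add_finrank_ker
  have h4 := ((x * g).1 + 1).finrank_range_add_finrank_ker
  have h5 := Submodule.finrank_add_finrank_le_of_disjoint (s := ker (x.1 + 1))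
    (t := ker ((x * g).1 + 1)) (Submodule.disjoint_def.2 fun y a b => by
      have : x.1 ((g.1 + 1) y) = 0 := by
        rw [LinearMap.add_apply, map_add, ← add_zero (_ + _), ← two' F y, add_add_add_comm]
        exact (congrArg₂ (· + ·) b a).trans (by rw [two' F y, add_zero])
      exact ker_eq_bot'.1 h y (ker_eq_bot'.1 ((isUnit_iff_ker_eq_bot _).1 x.isUnit) _ this))
  rw [show 2 * rk x = finrank F V by simp only [rk] at *; omega]

theorem fitting (nd : NDg Q) (hg : g ∈ Og Q) (hm : ∀ W : Submodule F V, (∀ w ∈ W, g.1 w ∈ W) →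
    Disjoint W (pp Q W) → W = ⊥ ∨ W = ⊤) : ker (g.1 + 1) = ⊥ ∨ IsNilpotent (g.1 + 1) := by
  obtain ⟨n, hn, n1⟩ := ((eventually_isCompl_ker_pow_range_pow (g.1 + 1)).and
    (Filter.eventually_ge_atTop 1)).exists
  have c : Commute (g.1 + 1) g.1 := (Commute.refl _).add_left (Commute.one_left _)
  have i : ∀ (k : ℕ), ∀ w ∈ ker ((g.1 + 1) ^ k), g.1 w ∈ ker ((g.1 + 1) ^ k) := fun k w hw => by
    rw [mem_ker, ← End.mul_apply, (c.pow_left k).eq, End.mul_apply, mem_ker.1 hw, map_zero]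
  have o : ∀ (k : ℕ) w, ((g.1 + 1) ^ k) w = 0 → ∀ y, Q.polarBilin (((g.1 + 1) ^ k) y) w = 0 :=
    fun k => by
      induction k with
      | zero => intro w hw y; simp [show w = 0 from hw]
      | succ k ih =>
        intro w hw y
        have := ih _ (inv_mem_of (i k) ((g.1 + 1) w) (by rwa [pow_succ] at hw)) y
        rw [← Og.adj hg, LinearMap.add_apply, map_add, Og.iso hg] at this
        rw [pow_succ', End.mul_apply, LinearMap.add_apply, map_add, LinearMap.add_apply, add_comm]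
        exact this
  refine (hm _ (i n) (Submodule.disjoint_def.2 fun w h1 h2 => nd w fun y => ?_)).imp
    (fun e => eq_bot_iff.2 fun w hw => e.le ?_) fun e => ⟨n, ker_eq_top.1 e⟩
  · obtain ⟨u, hu, _, ⟨z, rfl⟩, rfl⟩ :=
      Submodule.mem_sup.1 (hn.sup_eq_top ▸ Submodule.mem_top (x := y))
    rw [map_add, B_comm, h2 u hu, B_comm, o n w h1, add_zero]
  · rw [mem_ker, ← Nat.sub_add_cancel n1, pow_succ, End.mul_apply, mem_ker.1 hw, map_zero]

end Cfsg.Agent.FS
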