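import Cfsg.Agent.FS.R2

/-! Inverting isometries with prescribed Dickson invariant: the unipotent case. -/

set_option autoImplicit false

namespace Cfsg.Agent.FS

open Module QuadraticMap LinearMap LaurentPolynomial

variable {F V : Type*} [Field F] [CharP F 2]

variable (F) in
/-- `g + 1` -/
noncomputable def nu : F[T;T⁻¹] := T 1 + 1

theorem S2 : (2 : F[T;T⁻¹]) = 0 := by rw [← map_ofNat (C : F →+* _) 2, CharTwo.two_eq_zero, map_zero]

omit [CharP F 2] in
theorem TT : (T 1 * T (-1) : F[T;T⁻¹]) = 1 := by rw [← T_add]; rfl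

omit [CharP F 2] in
theorem inv_nu : invert (nu F) = T (-1) * nu F := by
  rw [nu, map_add, invert_T, map_one]; linear_combination -TT (F := F)

theorem decS (s : F[T;T⁻¹]) : ∃ c s', s = C c + nu F * s' := by
  induction s using LaurentPolynomial.induction_on' with
  | add p q h1 h2 =>
    obtain ⟨c, s, rfl⟩ := h1
    obtain ⟨c', s', rfl⟩ := h2
    exact ⟨c + c', s + s', by rw [map_add]; ring⟩
  | C_mul_T n a =>
    suffices ∃ s', (T n : F[T;T⁻¹]) = 1 + nu F * s' from this.elim fun s e => ⟨a, C a * s, by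
      rw [e]; ring⟩
    induction n using Int.induction_on with
    | zero => exact ⟨0, by simp⟩
    | succ n ih =>
      obtain ⟨s, e⟩ := ih
      exact ⟨s + T n, by rw [T_add, mul_add, ← add_assoc, ← e, nu]; linear_combination -T n * S2 (F := F)⟩
    | pred n ih =>
      obtain ⟨s, e⟩ := ih
      exact ⟨s + T (-n - 1), by
        rw [mul_add, ← add_assoc, ← e, nu, add_mul, ← T_add, show (1 : ℤ) + (-n - 1) = -n by ring]
        linear_combination -T (-n) * S2 (F := F)⟩

variable [AddCommGroup V] [Module F V] [Module F[T;T⁻¹] V] {Q : QuadraticForm F V} {g : (End F V)ˣ}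

variable (g) in
/-- the Laurent polynomials act through `g` -/
structure Act : Prop where
  hC : ∀ (a : F) (y : V), (C a : F[T;T⁻¹]) • y = a • y
  hT : ∀ (i : ℤ) (y : V), (T i : F[T;T⁻¹]) • y = (g ^ i).1 y

namespace Act

variable (H : Act g)
include H

omit [CharP F 2] in
theorem comm (s : F[T;T⁻¹]) (a : F) (y : V) : s • a • y = a • s • y := by
  rw [← H.hC, smul_comm, H.hC]

omit [CharP F 2] in
theorem adj (hg : g ∈ Og Q) (s : F[T;T⁻¹]) (x y : V) :
    Q.polarBilin (s • x) y = Q.polarBilin x (invert s • y) := by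
  induction s using LaurentPolynomial.induction_on' with
  | add p q h1 h2 => simp only [add_smul, map_add, LinearMap.add_apply, h1, h2]
  | C_mul_T n a =>
    simp [-polarBilin_apply_apply, mul_smul, H.hC, H.hT, Og.adj (zpow_mem hg n)]

omit [CharP F 2] in
theorem adj' (hg : g ∈ Og Q) (s : F[T;T⁻¹]) (x y : V) :
    Q.polarBilin x (s • y) = Q.polarBilin (invert s • x) y := by rw [B_comm, H.adj hg, B_comm]

omit [CharP F 2] in
theorem N_pow (j : ℕ) (y : V) : ((g.1 + 1) ^ j) y = nu F ^ j • y := by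
  induction j with
  | zero => simp
  | succ j ih => rw [pow_succ', pow_succ', End.mul_apply, ih, mul_smul, nu, add_smul, H.hT]; simp

theorem top {j : ℕ} {y : V} (h : nu F ^ (j + 1) • y = 0) (i : ℕ) :
    ((T (-1) : F[T;T⁻¹]) ^ i * nu F ^ j) • y = nu F ^ j • y := by
  induction i with
  | zero => simp
  | succ i ih =>
    rw [pow_succ', mul_assoc, mul_smul, ih, ← mul_smul, show T (-1) * nu F ^ j =
      nu F ^ j + T (-1) * nu F ^ (j + 1) by
        rw [pow_succ, nu]; linear_combination -(T 1 + 1) ^ j * (TT (F := F) + S2 (F := F)), add_smul,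
      mul_smul, h, smul_zero, add_zero]

theorem q_nu (hg : g ∈ Og Q) (y : V) : Q (nu F • y) = Q.polarBilin (nu F • y) y := by
  have := H.N_pow 1 y
  rw [pow_one, pow_one] at this
  rw [← this, Og.q_N hg]

omit [CharP F 2] in
theorem dec {P : Type*} [AddCommGroup P] [Module F P] (p : P →ₗ[F] V) [CharP F 2] {u : V}
    (hu : u ∈ Submodule.span F[T;T⁻¹] (Set.range p)) :
    ∃ c, ∃ u' ∈ Submodule.span F[T;T⁻¹] (Set.range p), u = p c + nu F • u' := by
  induction hu using Submodule.span_induction with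
  | mem x h => obtain ⟨c, rfl⟩ := h; exact ⟨c, 0, zero_mem _, by simp⟩
  | zero => exact ⟨0, 0, zero_mem _, by simp⟩
  | add x y _ _ h1 h2 =>
    obtain ⟨c, u, hu, rfl⟩ := h1
    obtain ⟨c', u', hu', rfl⟩ := h2
    exact ⟨c + c', u + u', add_mem hu hu', by rw [map_add, smul_add]; abel⟩
  | smul s x hx h =>
    obtain ⟨c, u, hu, rfl⟩ := h
    obtain ⟨a, s', rfl⟩ := decS s
    exact ⟨a • c, a • u + s' • (p c + nu F • u), add_mem (H.hC a u ▸ Submodule.smul_mem _ _ hu)
      (Submodule.smul_mem _ _ hx), by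
        rw [add_smul, H.hC, map_smul, smul_add, smul_add (nu F), H.comm, mul_smul, add_assoc]⟩

variable {m : ℕ} (h0 : ∀ y : V, nu F ^ (m + 1) • y = 0) {P : Type*} [AddCommGroup P] [Module F P]
  {p : P →ₗ[F] V}
include h0

theorem sym (hg : g ∈ Og Q) (x y : V) :
    Q.polarBilin (nu F ^ m • x) y = Q.polarBilin (nu F ^ m • y) x := by
  rw [H.adj hg, map_pow, inv_nu, mul_pow, H.top (h0 y), B_comm]

theorem gen (hg : g ∈ Og Q) (hm : ∀ W : Submodule F V, (∀ w ∈ W, g.1 w ∈ W) →
    Disjoint W (pp Q W) → W = ⊥ ∨ W = ⊤) [Nontrivial P]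
    (hp : ∀ c, (∀ c', Q.polarBilin (nu F ^ m • p c) (p c') = 0) → c = 0) (y : V) :
    y ∈ Submodule.span F[T;T⁻¹] (Set.range p) := by
  let U : Submodule F V := { (Submodule.span F[T;T⁻¹] (Set.range p)).toAddSubmonoid with
    smul_mem' := fun a u hu => H.hC a u ▸ Submodule.smul_mem _ _ hu }
  refine Submodule.eq_top_iff'.1 ((hm U (fun w hw => by
    have := Submodule.smul_mem _ (T 1 : F[T;T⁻¹]) hw
    rwa [H.hT, zpow_one] at this)
    (Submodule.disjoint_def.2 fun y h1 h2 => ?_)).resolve_left fun e => ?_) y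
  · have : ∀ i ≤ m + 1, ∃ u ∈ Submodule.span F[T;T⁻¹] (Set.range p), y = nu F ^ i • u := fun i => by
      induction i with
      | zero => exact fun _ => ⟨y, h1, by simp⟩
      | succ i ih =>
        intro hi
        obtain ⟨u, hu', e⟩ := ih (by omega)
        obtain ⟨c, u, hu, rfl⟩ := H.dec p hu'
        obtain ⟨k, rfl⟩ : ∃ k, m = k + i := ⟨m - i, by omega⟩
        refine ⟨u, hu, ?_⟩
        rw [e, hp c fun c' => ?_, map_zero, zero_add, ← mul_smul, pow_succ]
        have := h2 (invert (nu F ^ k) • p c') 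
          (Submodule.smul_mem _ _ (Submodule.subset_span (Set.mem_range_self c')))
        rwa [← H.adj' hg, B_comm, e, ← mul_smul, ← pow_add, smul_add, ← mul_smul, ← pow_succ, h0,
          add_zero] at this
    obtain ⟨u, -, e⟩ := this _ le_rfl
    rw [e, h0]
  · obtain ⟨c, hc⟩ := exists_ne (0 : P)
    exact hc (hp c fun c' => by
      rw [(Submodule.eq_bot_iff _).1 e (p c') (Submodule.subset_span ⟨c', rfl⟩), map_zero])

omit H in
theorem kerim (hd : ∀ y, ∃ c y', y = p c + nu F • y') (hp : ∀ c, nu F ^ m • p c = 0 → c = 0)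
    {j : ℕ} {y : V} (hy : nu F ^ j • y = 0) (i : ℕ) (h : i + j ≤ m + 1) : ∃ u : V, y = nu F ^ i • u := by
  induction i with
  | zero => exact ⟨y, by simp⟩
  | succ i ih =>
    obtain ⟨u, e⟩ := ih (by omega)
    obtain ⟨c, u, rfl⟩ := hd u
    obtain ⟨k, rfl⟩ : ∃ k, m = k + j + i := ⟨m - j - i, by omega⟩
    refine ⟨u, ?_⟩
    rw [e, hp c ?_, map_zero, zero_add, ← mul_smul, pow_succ]
    have := congrArg (nu F ^ k • ·) hy
    simp only [e, ← mul_smul, ← pow_add, smul_add, ← pow_succ, smul_zero, ← add_assoc] at this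
    rwa [h0, add_zero] at this

theorem dim [FiniteDimensional F V] [FiniteDimensional F P] (hd : ∀ y, ∃ c y', y = p c + nu F • y')
    (hp : ∀ c, nu F ^ m • p c = 0 → c = 0) (j : ℕ) (hj : j ≤ m + 1) :
    finrank F (range ((g.1 + 1) ^ j)) + j * finrank F P = finrank F V := by
  induction j with
  | zero => rw [pow_zero, End.one_eq_id, range_id]; simp
  | succ j ih =>
    obtain ⟨k, rfl⟩ : ∃ k, m = k + j := ⟨m - j, by omega⟩
    have := Submodule.finrank_sup_add_finrank_inf_eq (range ((g.1 + 1) ^ (j + 1)))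
      (range (((g.1 + 1) ^ j) ∘ₗ p))
    rw [finrank_range_of_inj (f := ((g.1 + 1) ^ j) ∘ₗ p) (ker_eq_bot.1 (ker_eq_bot'.2 fun c e =>
      hp c (by rw [pow_add, mul_smul, ← H.N_pow j, show ((g.1 + 1) ^ j) (p c) = 0 from e, smul_zero]))),
      (Submodule.eq_bot_iff (_ ⊓ _)).2 ?_, finrank_bot, show _ ⊔ _ = range ((g.1 + 1) ^ j) from
        le_antisymm (sup_le (by rw [pow_succ]; exact range_comp_le_range _ _)
          (range_comp_le_range _ _)) ?_] at this
    · have := ih (by omega)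
      rw [add_mul]; omega
    · rintro _ ⟨y, rfl⟩
      obtain ⟨c, u, rfl⟩ := hd y
      rw [map_add, add_comm (_ : V)]
      exact Submodule.add_mem_sup ⟨u, by rw [H.N_pow, H.N_pow, pow_succ, mul_smul]⟩ ⟨c, rfl⟩
    · rintro _ ⟨⟨u, e⟩, c, rfl⟩
      rw [hp c ?_, map_zero]
      rw [pow_add, mul_smul, ← H.N_pow j, show ((g.1 + 1) ^ j) (p c) = _ from e.symm, H.N_pow,
        ← mul_smul, ← pow_add, ← add_assoc, h0]

theorem dim' [FiniteDimensional F V] [FiniteDimensional F P] (hd : ∀ y, ∃ c y', y = p c + nu F • y')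
    (hp : ∀ c, nu F ^ m • p c = 0 → c = 0) : finrank F V = (m + 1) * finrank F P := by
  rw [← H.dim h0 hd hp _ le_rfl, range_eq_bot.2 (LinearMap.ext fun y => (H.N_pow _ y).trans (h0 y))]
  simp

end Act

end Cfsg.Agent.FS
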