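import Cfsg.Agent.FS.R3

/-! Every isometry of a quadratic form of dimension `2n` (`q` even) is inverted by an isometry of
Dickson invariant `n`. -/

set_option autoImplicit false

namespace Cfsg.Agent.FS

open Module QuadraticMap LinearMap LaurentPolynomial

variable {F V : Type*} [Field F] [CharP F 2] [AddCommGroup V] [Module F V] [Module F[T;T⁻¹] V]
  {Q : QuadraticForm F V} {g : (End F V)ˣ}

namespace Act

variable (H : Act g)
include H

omit [CharP F 2] in
theorem semi {x : (End F V)ˣ} (e : g * x * g = x) (s : F[T;T⁻¹]) (y : V) :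
    x.1 (s • y) = invert s • x.1 y := by
  induction s using LaurentPolynomial.induction_on' with
  | add p q h1 h2 => simp only [add_smul, map_add, h1, h2]
  | C_mul_T n a =>
    have : SemiconjBy x g g⁻¹ := by rw [SemiconjBy, eq_inv_mul_iff_mul_eq, ← mul_assoc, e]
    have := congrArg (·.1 y) (this.zpow_right n).eq
    simpa [mul_smul, H.hC, H.hT] using congrArg (a • ·) this

theorem pair (hg : g ∈ Og Q) {i j : ℕ} {x : V} (h : nu F ^ (j + i + 1) • x = 0) (y : V) :
    Q.polarBilin (nu F ^ i • x) (nu F ^ j • y) = Q.polarBilin (nu F ^ (j + i) • x) y := by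
  rw [H.adj' hg, map_pow, inv_nu, mul_pow, ← mul_smul, mul_assoc, ← pow_add, H.top h]

theorem perp_T (nd : NDg Q) (hg : g ∈ Og Q) {j : ℕ} {y : V}
    (h : ∀ t ∈ range ((g.1 + 1) ^ j), Q.polarBilin t y = 0) : nu F ^ j • y = 0 := nd _ fun z => by
  rw [H.adj hg, B_comm, map_pow, inv_nu, mul_pow, mul_comm, mul_smul]
  exact h _ ⟨_, H.N_pow _ _⟩

theorem map_T {x : (End F V)ˣ} (e : g * x * g = x) {j : ℕ} :
    ∀ t ∈ range ((g.1 + 1) ^ j), x.1 t ∈ range ((g.1 + 1) ^ j) := by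
  rintro _ ⟨y, rfl⟩
  rw [H.N_pow, H.semi e, map_pow, inv_nu, mul_pow, mul_comm, mul_smul]
  exact ⟨_, H.N_pow _ _⟩

variable [Finite F] [Finite V] (nd : NDg Q) (hg : g ∈ Og Q) (hm : ∀ W : Submodule F V,
  (∀ w ∈ W, g.1 w ∈ W) → Disjoint W (pp Q W) → W = ⊥ ∨ W = ⊤)
include nd hg hm

theorem caseA {m : ℕ} (h0 : ∀ y : V, nu F ^ (m + 1) • y = 0) {y : V}
    (hy : Q.polarBilin (nu F ^ m • y) y ≠ 0) : Pr Q g := by
  have hp : ∀ c, (∀ c', Q.polarBilin (nu F ^ m • toSpanSingleton F V y c) (toSpanSingleton F V y c') =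
      0) → c = 0 := fun c h => by simpa [-polarBilin_apply_apply, H.comm, hy] using h 1
  have d := H.dim h0 (fun y => (H.dec _ (H.gen h0 hg hm hp y)).imp fun _ h => h.imp fun _ h => h.2)
    (fun c e => hp c fun _ => by rw [e]; simp) 1 (by omega)
  rw [pow_one, finrank_self] at d
  obtain ⟨x, hx, e⟩ := realQ nd hg
  obtain ⟨n, hn⟩ := nd.even
  have := rk_mul nd hx hg
  by_cases k : 2 * rk x ≡ finrank F V [MOD 4]
  · exact ⟨x, hx, e, k⟩
  · refine ⟨x * g, mul_mem hx hg, by rw [← mul_assoc, e], ?_⟩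
    simp only [Nat.ModEq, rk] at *; omega

omit [Finite F] in
theorem pair_gen {m : ℕ} (h0 : ∀ y : V, nu F ^ (m + 1) • y = 0)
    (h1 : ∀ y, Q.polarBilin (nu F ^ m • y) y = 0) {v w : V}
    (hw : Q.polarBilin (nu F ^ m • v) w ≠ 0) : (∀ y, ∃ a e : F[T;T⁻¹], a • v + e • w = y) ∧
      (∀ y, ∃ (a e : F) (y' : V), y = a • v + e • w + nu F • y') ∧ finrank F V = (m + 1) * 2 ∧
      ∀ i j, i + j ≤ m + 1 → ∀ y : V, nu F ^ j • y = 0 → ∃ u : V, y = nu F ^ i • u := by
  let p := (toSpanSingleton F V v).coprod (toSpanSingleton F V w)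
  have hp : ∀ c, (∀ c', Q.polarBilin (nu F ^ m • p c) (p c') = 0) → c = 0 := fun c h => Prod.ext
    (by simpa [-polarBilin_apply_apply, p, H.comm, hw, h1] using h (0, 1))
    (by simpa [-polarBilin_apply_apply, p, H.comm, hw, h1, H.sym h0 hg w] using h (1, 0))
  have hd := fun y => (H.dec _ (H.gen h0 hg hm hp y)).imp fun _ h => h.imp fun _ h => h.2
  have hp' : ∀ c, nu F ^ m • p c = 0 → c = 0 := fun c e => hp c fun _ => by rw [e]; simp
  refine ⟨fun y => Submodule.mem_span_pair.1 (Submodule.span_le.2 ?_ (H.gen h0 hg hm hp y)),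
    fun y => ?_, by simpa using H.dim' h0 hd hp', fun i j h y hy => kerim h0 hd hp' hy i h⟩
  · rintro _ ⟨c, rfl⟩
    exact Submodule.mem_span_pair.2 ⟨C c.1, C c.2, by simp [H.hC, p]⟩
  · obtain ⟨c, u, e⟩ := hd y
    exact ⟨c.1, c.2, u, e⟩

theorem caseB {k : ℕ} (h0 : ∀ y : V, nu F ^ (2 * k + 1 + 1) • y = 0)
    (h1 : ∀ y, Q.polarBilin (nu F ^ (2 * k + 1) • y) y = 0) {v : V}
    (hv : nu F ^ (2 * k + 1) • v ≠ 0) : Pr Q g := by
  obtain ⟨w, hw⟩ := not_forall.1 (mt (nd _) hv)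
  obtain ⟨-, -, d, ki⟩ := H.pair_gen nd hg hm h0 h1 hw
  obtain ⟨x, hx, e⟩ := realQ nd hg
  obtain ⟨n, hn⟩ := rk_even nd (range ((g.1 + 1) ^ (k + 1))) (by
    rintro _ ⟨y, rfl⟩
    rw [H.N_pow, pow_succ', mul_smul, H.q_nu hg, ← mul_smul, ← pow_succ', H.pair hg (by
      rw [← h0 y]; congr 2; ring), ← h1 y]
    congr 4; ring) hx (H.map_T e) fun y hy => by
      obtain ⟨u, rfl⟩ := ki (k + 1) (k + 1) (by omega) y (H.perp_T nd hg hy)
      exact add_mem (H.map_T e _ ⟨u, H.N_pow _ _⟩) ⟨u, H.N_pow _ _⟩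
  exact ⟨x, hx, e, by simp only [Nat.ModEq]; omega⟩

theorem caseC {k : ℕ} (h0 : ∀ y : V, nu F ^ (2 * k + 1) • y = 0) {v₀ : V}
    (hv₀ : nu F ^ (2 * k) • v₀ ≠ 0) : Pr Q g := by
  have pk : ∀ x y : V, Q.polarBilin (nu F ^ k • x) (nu F ^ k • y) =
      Q.polarBilin (nu F ^ (2 * k) • x) y := fun x y => by
    rw [H.pair hg (by rw [← two_mul, h0]), two_mul]
  obtain ⟨v, hv⟩ : ∃ v : V, Q (nu F ^ k • v) ≠ 0 := by
    by_contra! h
    refine hv₀ (nd _ fun y => ?_)
    have := Q_add (Q := Q) (nu F ^ k • v₀) (nu F ^ k • y)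
    rwa [← smul_add, h, h, h, pk, add_zero, zero_add, eq_comm] at this
  obtain ⟨s, hs⟩ : ∃ s : F[T;T⁻¹], s = T (-1) * nu F * nu F := ⟨_, rfl⟩
  have s1 : s = T 1 + T (-1) := by
    rw [hs, nu]; linear_combination (T 1 + 2) * TT (F := F) + S2 (F := F)
  have s2 : invert s = s := by rw [s1]; simp [add_comm]
  have s3 : ∀ (j : ℕ) (x y : V), Q.polarBilin (nu F ^ j • x) (nu F ^ j • y) =
      Q.polarBilin (s ^ j • x) y := fun j x y => by
    rw [H.adj' hg, map_pow, inv_nu, ← mul_smul, ← mul_pow, hs]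
  have s4 : ∀ (j : ℕ) (y : V), Q.polarBilin (s ^ j • y) y = 0 := fun j y => by rw [← s3, B_self]
  have s5 : ∀ j, Q (nu F ^ (j + 1) • v) = Q.polarBilin ((T 1 * s ^ j) • v) v := fun j => by
    rw [pow_succ, mul_smul, smul_comm, H.q_nu hg, smul_comm, s3, ← mul_smul, nu, mul_add, add_smul,
      map_add, LinearMap.add_apply, mul_one, s4, add_zero, mul_comm]
  have s6 : ∀ j, k < j → ∀ y : V, (nu F * s ^ (j - 1)) • y = 0 := fun j hj y => by
    obtain ⟨l, rfl⟩ := Nat.exists_eq_add_of_lt hj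
    rw [hs, show nu F * (T (-1) * nu F * nu F) ^ (k + l + 1 - 1) = T (-1) ^ (k + l) * nu F ^ (2 * l) *
      nu F ^ (2 * k + 1) by rw [Nat.add_sub_cancel]; ring, mul_smul, h0, smul_zero]
  have s7 : ∀ j, k < j → ∀ y : V, s ^ j • y = 0 := fun j hj y => by
    rw [← Nat.sub_add_cancel (show 1 ≤ j by omega), show s ^ (j - 1 + 1) =
      T (-1) * nu F * (nu F * s ^ (j - 1)) by rw [pow_succ, hs]; ring, mul_smul, s6 j hj, smul_zero]
  have s8 : ∀ y : V, s ^ k • y = nu F ^ (2 * k) • y := fun y => by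
    rw [← H.top (h0 y) k, hs]; congr 1; ring
  have qT : ∀ u : V, Q (nu F ^ (k + 1) • u) = 0 := fun u => by
    rw [pow_succ', mul_smul, H.q_nu hg, H.adj' hg, map_pow, inv_nu, ← mul_smul, ← mul_smul,
      show (T (-1) * nu F) ^ k * nu F * nu F ^ k = T (-1) ^ k * nu F ^ (2 * k + 1) by ring, mul_smul,
      h0]
    simp
  obtain ⟨w₀, hw₀⟩ := not_forall.1 (mt (nd _) hv₀)
  obtain ⟨-, -, d, ki⟩ := H.pair_gen nd hg hm h0 (fun y => by rw [← pk, B_self]) hw₀
  obtain ⟨z, hz⟩ := not_forall.1 (mt (nd _) (show s ^ k • v ≠ 0 from fun e => hv (by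
    obtain ⟨u, rfl⟩ := ki 1 (2 * k) (by omega) v (by rw [← s8, e])
    rw [← mul_smul, ← pow_add, qT])))
  obtain ⟨w, hw⟩ : ∃ w, ∀ j, Q.polarBilin (s ^ j • v) w = Q (nu F ^ j • v) := by
    suffices ∀ i ≤ k + 1, ∃ w, ∀ j, k < j + i → Q.polarBilin (s ^ j • v) w = Q (nu F ^ j • v) from
      (this _ le_rfl).imp fun w h j => h j (by omega)
    intro i
    induction i with
    | zero =>
      refine fun _ => ⟨0, fun j hj => ?_⟩
      obtain ⟨j, rfl⟩ : ∃ l, j = l + 1 := ⟨j - 1, by omega⟩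
      have := s6 (j + 1) hj v
      rw [nu, add_mul, add_smul, Nat.add_sub_cancel, one_mul] at this
      rw [map_zero, s5, ← add_zero ((T 1 * s ^ j) • v), ← two' F (s ^ j • v), ← add_assoc, this,
        zero_add, s4]
    | succ i ih =>
      intro hi
      obtain ⟨w, hw⟩ := ih (by omega)
      refine ⟨w + ((Q (nu F ^ (k - i) • v) - Q.polarBilin (s ^ (k - i) • v) w) /
        Q.polarBilin (s ^ k • v) z) • s ^ i • z, fun j hj => ?_⟩
      rw [map_add, (Q.polarBilin _).map_smul, H.adj' hg (s ^ i), map_pow, s2, ← mul_smul, ← pow_add]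
      rcases (show k < j + i ∨ j = k - i by omega) with h | rfl
      · rw [hw j h, s7 (i + j) (by omega)]; simp
      · rw [show i + (k - i) = k by omega, smul_eq_mul, div_mul_cancel₀ _ hz, add_sub_cancel]
  have key : ∀ a : F[T;T⁻¹], Q.polarBilin (a • v) w + Q.polarBilin (invert a • v) w =
      Q.polarBilin (a • v) v := fun a => by
    have h1 : ∀ (n j : ℕ), Q.polarBilin ((T n * s ^ j) • v) w + Q.polarBilin ((T (-n) * s ^ j) • v) w =
        Q.polarBilin ((T n * s ^ j) • v) v := fun n => by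
      induction n using Nat.twoStepInduction with
      | zero => intro j; simp [-polarBilin_apply_apply, s4, CharTwo.add_self_eq_zero]
      | one =>
        intro j
        rw [← LinearMap.add_apply, ← map_add, ← add_smul, ← add_mul, Nat.cast_one, ← s1, ← pow_succ',
          hw, s5]
      | more n h1 h2 =>
        intro j
        have e : ∀ a : ℤ, (T (a + 1) * s ^ j : F[T;T⁻¹]) = T a * s ^ (j + 1) + T (a + -1) * s ^ j :=
          fun a => by
            rw [pow_succ, s1, T_add, T_add]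
            linear_combination -(T a * T (-1) * (T 1 + T (-1)) ^ j) * S2 (F := F)
        have e' : ∀ a : ℤ, (T (a + -1) * s ^ j : F[T;T⁻¹]) = T a * s ^ (j + 1) + T (a + 1) * s ^ j :=
          fun a => by rw [e]; linear_combination -(T a * s ^ (j + 1)) * S2 (F := F)
        have a1 := e (n + 1 : ℕ)
        have a2 := e' (-(n + 1 : ℕ))
        rw [show ((n + 1 : ℕ) : ℤ) + 1 = (n + 2 : ℕ) by push_cast; ring,
          show ((n + 1 : ℕ) : ℤ) + -1 = n by push_cast; ring] at a1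
        rw [show -((n + 1 : ℕ) : ℤ) + -1 = -(n + 2 : ℕ) by push_cast; ring,
          show -((n + 1 : ℕ) : ℤ) + 1 = -n by push_cast; ring] at a2
        simp only [a1, a2, add_smul, map_add, LinearMap.add_apply, ← h1 j, ← h2 (j + 1)]
        ring
    induction a using LaurentPolynomial.induction_on' with
    | add p q h1 h2 => simp only [add_smul, map_add, LinearMap.add_apply, ← h1, ← h2]; ring
    | C_mul_T n a =>
      simp only [map_mul, invert_C, invert_T, mul_smul, H.hC, map_smul, LinearMap.smul_apply,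
        ← smul_add]
      congr 1
      obtain ⟨n, rfl | rfl⟩ := n.eq_nat_or_neg
      · simpa using h1 n 0
      · have := h1 n 0
        rw [pow_zero, mul_one, mul_one] at this
        rw [neg_neg, add_comm, this, H.adj hg, invert_T, B_comm]
  obtain ⟨gen, hd, -⟩ := H.pair_gen nd hg hm h0 (fun y => by rw [← pk, B_self]) (v := v) (w := w)
    (by rw [← s8, hw]; exact hv)
  have ii : ∀ a : F[T;T⁻¹], invert (invert a) = a := involutive_invert
  have B2 : ∀ (a c : F[T;T⁻¹]) (x y : V), Q.polarBilin (a • x) (c • y) =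
      Q.polarBilin ((invert c * a) • x) y := fun a c x y => by rw [H.adj' hg, mul_smul]
  have B3 : ∀ (a : F[T;T⁻¹]) (x : V), Q.polarBilin (invert a • x) x = Q.polarBilin (a • x) x :=
    fun a x => by rw [← H.adj' hg, B_comm]
  have iso : ∀ f f' : F[T;T⁻¹] × F[T;T⁻¹], Q.polarBilin (invert f.1 • v + invert f.2 • (w + v))
      (invert f'.1 • v + invert f'.2 • (w + v)) =
      Q.polarBilin (f.1 • v + f.2 • w) (f'.1 • v + f'.2 • w) := fun f f' => by
    have a1 := key (invert f'.1 * f.2)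
    have a2 := key (invert f'.2 * f.1)
    have a3 := key (invert f'.2 * f.2)
    have a4 := B3 (invert f'.1 * f.1) v
    have a5 := B3 (invert f'.2 * f.2) w
    have a6 := B3 (invert f'.1 * f.2) v
    have a7 := B3 (invert f'.2 * f.1) v
    have a8 := B3 (invert f'.2 * f.2) v
    simp only [smul_add, map_add, LinearMap.add_apply, B_comm (_ • w) (_ • v), B2, ii, map_mul,
      mul_comm (f'.1) , mul_comm (f'.2), mul_comm (invert f'.1), mul_comm (invert f'.2)] at *
    grind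
  obtain ⟨x, hx⟩ := mkF nd (fun f : F[T;T⁻¹] × F[T;T⁻¹] => f.1 • v + f.2 • w)
    (fun f => invert f.1 • v + invert f.2 • (w + v)) (fun y => (gen y).elim fun a h => h.elim
      fun e h => ⟨(a, e), h⟩) (fun f => ⟨(invert (f.1 + f.2), invert f.2), by
        simp only [ii, add_smul, smul_add]
        rw [← add_zero (_ + _ • w), ← two' F (f.2 • v)]; abel⟩) iso
  have xv : x.1 v = v := by simpa using hx (1, 0)
  have xw : x.1 w = w + v := by simpa using hx (0, 1)
  have e : g * x * g = x := Units.ext (LinearMap.ext fun y => by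
    obtain ⟨a, c, rfl⟩ := gen y
    have := hx (T 1 * a, T 1 * c)
    simp only [mul_smul, map_mul, invert_T, H.hT, zpow_one, zpow_neg] at this
    rw [← map_add, ← map_add] at this
    rw [Units.val_mul, Units.val_mul, End.mul_apply, End.mul_apply, this, ← End.mul_apply,
      Units.mul_inv, hx (a, c)]; rfl)
  have xi : ∀ y y', Q.polarBilin (x.1 y) (x.1 y') = Q.polarBilin y y' := fun y y' => by
    obtain ⟨a, c, rfl⟩ := gen y
    obtain ⟨a', c', rfl⟩ := gen y'
    rw [hx (a, c), hx (a', c'), iso (a, c) (a', c')]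
  have xq : x ∈ Og Q := fun y => by
    obtain ⟨a, c, u, rfl⟩ := hd y
    have h1 := hw 0
    have h2 : Q (x.1 (nu F • u)) = Q (nu F • u) := by
      rw [H.semi e, inv_nu, mul_smul, H.hT, zpow_mem hg, H.q_nu hg, H.q_nu hg, H.adj hg, ← H.semi e,
        xi, B_comm]
    rw [pow_zero, pow_zero, one_smul] at h1
    rw [map_add, Q_add, Q_add (_ + _), xi, h2, map_add, Q_add, Q_add, xi, x.1.map_smul, x.1.map_smul, xv, xw,
      Q.map_smul, Q.map_smul, Q.map_smul, Q_add, B_comm w, h1, add_assoc (Q w),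
      CharTwo.add_self_eq_zero, add_zero]
  have r1 : ∀ t ∈ range ((g.1 + 1) ^ (k + 1)), (rf Q (nu F ^ k • v)).1 t = t := by
    rintro _ ⟨y, rfl⟩
    rw [rf_apply, H.N_pow, pow_succ, mul_smul, pk, H.sym h0 hg, ← mul_smul (_ ^ (2 * k)), ← pow_succ,
      h0]; simp
  have xk : ∀ y y' : V, x.1 y = y' → x.1 (nu F ^ k • y) + nu F ^ k • y' ∈
      range ((g.1 + 1) ^ (k + 1)) := fun y y' h => by
    obtain ⟨t, ht⟩ : ∃ t, (T (-1) : F[T;T⁻¹]) ^ k + 1 = nu F * t := by
      refine dvd_trans ⟨T (-1), ?_⟩ ((sub_dvd_pow_sub_pow (T (-1)) 1 k).trans ⟨1, ?_⟩)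
      · rw [mul_comm, ← inv_nu, nu, map_add, invert_T, map_one]; linear_combination -S2 (F := F)
      · linear_combination S2 (F := F)
    refine ⟨t • y', ?_⟩
    rw [H.N_pow, H.semi e, h, map_pow, inv_nu, mul_pow, ← add_smul, ← mul_smul, pow_succ, mul_assoc,
      ← ht]
    congr 1; ring
  obtain ⟨n, hn⟩ := rk_even nd (range ((g.1 + 1) ^ (k + 1))) (by
    rintro _ ⟨y, rfl⟩; rw [H.N_pow, qT]) (mul_mem (rf_mem (nu F ^ k • v)) xq)
    (fun t ht => by rw [Units.val_mul, End.mul_apply, r1 _ (H.map_T e t ht)]; exact H.map_T e t ht)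
    fun y hy => by
      obtain ⟨u, rfl⟩ := ki k (k + 1) (by omega) y (H.perp_T nd hg hy)
      obtain ⟨a, c, u, rfl⟩ := hd u
      have m : ∀ y y' : V, x.1 y = y' → (rf Q (nu F ^ k • v)).1 (nu F ^ k • y') = nu F ^ k • y →
          ((rf Q (nu F ^ k • v) * x).1 + 1) (nu F ^ k • y) ∈ range ((g.1 + 1) ^ (k + 1)) :=
        fun y y' h h' => by
          have := xk y y' h
          rw [← r1 _ this, map_add, h'] at this
          exact this
      change ((rf Q (nu F ^ k • v) * x).1 + 1) _ ∈ _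
      rw [smul_add, smul_add, H.comm, H.comm, map_add, map_add, LinearMap.map_smul,
        LinearMap.map_smul, ← mul_smul, ← pow_succ, ← H.N_pow (k + 1)]
      refine add_mem (add_mem (Submodule.smul_mem _ _ (m v v xv ?_)) (Submodule.smul_mem _ _
        (m w _ xw ?_))) ?_
      · rw [rf_apply, B_self]; simp
      · rw [smul_add, rf_apply, map_add, B_self, add_zero, s3, hw, inv_mul_cancel₀ hv, one_smul,
          add_assoc, two' F, add_zero]
      · have := H.map_T e _ ⟨u, rfl⟩ (j := k + 1)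
        rw [LinearMap.add_apply, Units.val_mul, End.mul_apply, r1 _ this]
        exact add_mem this ⟨u, rfl⟩
  have := rk_mul nd (rf_mem (nu F ^ k • v)) xq
  rw [rk_rf nd hv] at this
  exact ⟨x, xq, e, by simp only [Nat.ModEq] at *; omega⟩

end Act

omit [Module F[T;T⁻¹] V] in
theorem Pr.unip [Finite F] [Finite V] (nd : NDg Q) (hg : g ∈ Og Q) (hm : ∀ W : Submodule F V,
    (∀ w ∈ W, g.1 w ∈ W) → Disjoint W (pp Q W) → W = ⊥ ∨ W = ⊤) (h : IsNilpotent (g.1 + 1))
    (h' : ker (g.1 + 1) ≠ ⊥) : Pr Q g := by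
  classical
  let φ := AddMonoidAlgebra.lift F (End F V) ℤ ((Units.coeHom _).comp (zpowersHom _ g))
  let _ : Module F[T;T⁻¹] V := Module.compHom V φ.toRingHom
  have H : Act g := ⟨fun a y => congrArg (· y) (φ.commutes a), fun i y =>
    LinearMap.congr_fun ((AddMonoidAlgebra.lift_single _ i 1).trans (one_smul _ _) :
      φ (.single i 1) = (g ^ i).1) y⟩
  obtain ⟨m, h0⟩ : ∃ m, Nat.find h = m + 1 := Nat.exists_eq_succ_of_ne_zero fun e => h' (by
    have := Nat.find_spec h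
    rw [e, pow_zero] at this
    exact eq_bot_iff.2 fun y _ => LinearMap.congr_fun this y)
  have h1 : ∀ y : V, nu F ^ (m + 1) • y = 0 := fun y => by rw [← H.N_pow, ← h0, Nat.find_spec h]; rfl
  obtain ⟨v, hv⟩ := not_forall.1 (mt LinearMap.ext (Nat.find_min h (m := m) (by omega)))
  rw [H.N_pow] at hv
  obtain ⟨k, rfl | rfl⟩ := m.even_or_odd'
  · exact H.caseC nd hg hm h1 hv
  by_cases e : ∀ y, Q.polarBilin (nu F ^ (2 * k + 1) • y) y = 0
  · exact H.caseB nd hg hm h1 e hv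
  · exact H.caseA nd hg hm h1 (not_forall.1 e).choose_spec

theorem pr_aux [Finite F] (n : ℕ) : ∀ (V : Type*) [AddCommGroup V] [Module F V] [Finite V],
    finrank F V = n → ∀ (Q : QuadraticForm F V), NDg Q → ∀ g ∈ Og Q, Pr Q g := by
  induction n using Nat.strong_induction_on with
  | _ n ih =>
    intro V _ _ _ hV Q nd g hg
    by_cases hm : ∀ W : Submodule F V, (∀ w ∈ W, g.1 w ∈ W) → Disjoint W (pp Q W) → W = ⊥ ∨ W = ⊤
    · by_cases h : ker (g.1 + 1) = ⊥
      · exact Pr.fpf nd hg h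
      · exact Pr.unip nd hg hm ((fitting nd hg hm).resolve_left h) h
    push Not at hm
    obtain ⟨W, h, d, h0, h1⟩ := hm
    refine Pr.glue nd hg h d fun U hU => ih _ (hV ▸ Submodule.finrank_lt ?_) U rfl _
    rcases hU with rfl | rfl
    · exact h1
    · exact fun e => h0 (d.eq_bot_of_le (e ▸ le_top))

end Cfsg.Agent.FS
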