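import Cfsg.Agent.FS.R4
import Cfsg.Agent.FS.Forms
import Cfsg.Agent.H4.Clifford

/-! `Ω` is the kernel of the Dickson invariant; its Frobenius–Schur indicators. -/

set_option autoImplicit false

namespace Cfsg.Agent.FS

open Module QuadraticMap LinearMap Cfsg.Agent.H3

theorem fs_index_two {G : Type*} [Group G] [Fintype G] (N : Subgroup G) [N.Normal] [Fintype N]
    (hN : N.index = 2) (hG : ∀ χ, IsIrrCharacter G χ → fsInd χ = 1) (hr : ∀ h : N, IsConj h h⁻¹)
    {ψ : N → ℂ} (hψ : IsIrrCharacter N ψ) : fsInd ψ = 1 := by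
  rcases hψ.fsInd_cases with ⟨-, s, h⟩ | ⟨h | h, -⟩
  · exact (h (Complex.conj_eq_iff_im.1 (by
      rw [← hψ.apply_inv, ← hψ.isClassFunction.eq_of_isConj (hr s)]))).elim
  · exact h
  obtain ⟨χ, hχ, h1⟩ := H4.exists_irr_over N hψ
  obtain ⟨e, he⟩ := (hχ.isCharacter.restrict N).exists_nat_classInner hψ.isCharacter
  have re : ∀ s, (χ s).im = 0 := (hχ.fsInd_cases.resolve_left fun k => by
    rw [hG χ hχ] at k; exact one_ne_zero k.1).2
  obtain ⟨S, A, hS, hA, e1, e2⟩ := hχ.isCharacter.exists_sym_alt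
  obtain ⟨a0, ha0⟩ := hS.exists_nat_classInner isCharacter_one
  obtain ⟨b0, hb0⟩ := hA.exists_nat_classInner isCharacter_one
  have k0 : (1 : ℂ) = a0 - b0 := by
    rw [← hG χ hχ, fsInd_eq_classInner, ← ha0, ← hb0, ← classInner_sub_left]
    exact congrArg (classInner · 1) (funext fun g => (e2 g).symm)
  obtain ⟨a, ha⟩ := H4.exists_classInner_comp_eq_add_of_constituent N.subtype hS isIrrCharacter_one
    (by rw [ha0]; rintro k; rw [k] at k0; exact absurd (by exact_mod_cast k0 : (1 : ℤ) = 0 - b0)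
          (by omega)) isCharacter_one
  obtain ⟨b, hb⟩ := (hA.restrict N).exists_nat_classInner isCharacter_one
  replace ha : classInner (fun x : N => S x) 1 = 1 + a := ha.trans (by
    rw [← classInner_one_one (G := N)]; rfl)
  have k1 : fsInd (fun n : N => χ n) = 1 + a - b := by
    rw [fsInd_eq_classInner, ← ha, ← hb, ← classInner_sub_left]
    exact congrArg (classInner · 1) (funext fun g => (e2 g).symm)
  have k2 : fsInd (fun n : N => χ n) = -(e * (H4.conjIrr N ψ).card) := by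
    rw [H4.clifford_res N hχ hψ h1, he, fsInd]
    simp only [Pi.smul_apply, Finset.sum_apply, smul_eq_mul, ← Finset.mul_sum]
    rw [mul_left_comm, Finset.sum_comm, Finset.mul_sum, Finset.sum_congr rfl (g := fun _ => -1)
      fun φ hφ => ?_]
    · simp
    obtain ⟨g, hg⟩ := (H4.mem_conjIrr N ψ φ).1 hφ
    rw [← hg, ← h, fsInd, ← Equiv.sum_comp (MulAut.conjNormal g : MulAut N).toEquiv
      fun s => ψ (s * s)]
    exact congrArg _ (Finset.sum_congr rfl fun s _ => congrArg ψ (Subtype.ext (by simp)))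
  have k3 : classInner (fun n : N => χ n) (fun n : N => χ n) = 1 + a + b := by
    rw [← ha, ← hb, ← classInner_add_left]
    simp [classInner, e1, Complex.conj_eq_iff_im.2 (re _)]
  have k4 := hχ.classInner_self
  rw [classInner_self_eq] at k3 k4
  have k5 : ∑ n : N, ‖χ n‖ ^ 2 ≤ ∑ g, ‖χ g‖ ^ 2 := by
    classical
    rw [← Finset.sum_subtype (Finset.univ.filter (· ∈ N)) (by simp) fun g => ‖χ g‖ ^ 2]
    exact Finset.sum_le_sum_of_subset_of_nonneg (Finset.filter_subset _ _) fun _ _ _ => by positivity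
  have hc : (Nat.card G : ℝ) = 2 * Nat.card N := by rw [← N.card_mul_index, hN]; push_cast; ring
  have hp : (0 : ℝ) < Nat.card N := by exact_mod_cast Nat.card_pos
  have k6 : (Nat.card N : ℝ)⁻¹ * ∑ n : N, ‖χ n‖ ^ 2 = 1 + a + b := by exact_mod_cast k3
  have k7 : (Nat.card G : ℝ)⁻¹ * ∑ g, ‖χ g‖ ^ 2 = 1 := by exact_mod_cast k4
  rw [hc] at k7
  field_simp at k6 k7
  have k8 : 1 + a + b ≤ 2 := by
    have : (1 + a + b : ℝ) ≤ 2 := by nlinarith
    exact_mod_cast this
  have k9 : (1 + a - b : ℤ) = -(e * (H4.conjIrr N ψ).card) := by exact_mod_cast k1.symm.trans k2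
  have := mul_pos (Nat.pos_of_ne_zero fun k : e = 0 => h1 (by rw [he, k, Nat.cast_zero]))
    (Finset.card_pos.2 ⟨⟨ψ, hψ⟩, (H4.mem_conjIrr N ψ _).2 ⟨1, by ext; simp [H4.conjFun]⟩⟩)
  omega

variable {F V : Type*} [Field F] [CharP F 2] [AddCommGroup V] [Module F V] [FiniteDimensional F V]
  {Q : QuadraticForm F V} {g : (End F V)ˣ}

omit [CharP F 2] in
theorem ns3 (nd : NDg Q) (h : 6 < finrank F V) (a b c : V) :
    ∃ e, Q.polarBilin a e = 0 ∧ Q.polarBilin b e = 0 ∧ Q.polarBilin c e = 0 ∧ Q e ≠ 0 := by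
  by_contra! n
  let T := Submodule.span F (Set.range ![a, b, c])
  have m : ∀ e ∈ pp Q T, Q e = 0 := fun e he => n e (he a (Submodule.subset_span ⟨0, rfl⟩))
    (he b (Submodule.subset_span ⟨1, rfl⟩)) (he c (Submodule.subset_span ⟨2, rfl⟩))
  have h1 : finrank F T ≤ 3 := (finrank_range_le_card _).trans (by simp)
  have h2 := LinearMap.BilinForm.finrank_orthogonal nd.nondeg T
  have h3 := LinearMap.BilinForm.finrank_orthogonal nd.nondeg (pp Q T)
  have h4 := Submodule.finrank_mono (show pp Q T ≤ pp Q (pp Q T) from fun x hx y hy => by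
    simpa [m _ hx, m _ hy, m _ (add_mem hy hx)] using (Q_add (Q := Q) y x).symm)
  simp only [pp] at *
  omega

omit [FiniteDimensional F V] in
theorem rf_conj (hg : g ∈ Og Q) (a : V) : g * rf Q a * g⁻¹ = rf Q (g.1 a) :=
  Units.ext (LinearMap.ext fun y => by
    rw [Units.val_mul, Units.val_mul, End.mul_apply, End.mul_apply, rf_apply, rf_apply, map_add,
      ← End.mul_apply, Units.mul_inv, LinearMap.map_smul, hg, Og.adj hg]; rfl)

omit [FiniteDimensional F V] in
theorem rf_smul {c : F} (hc : c ≠ 0) (a : V) : rf Q (c • a) = rf Q a :=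
  Units.ext (LinearMap.ext fun y => by
    rw [rf_apply, rf_apply, Q.map_smul, LinearMap.map_smul, smul_smul]
    congr 2; simp only [smul_eq_mul, LinearMap.smul_apply]; field_simp)

omit [FiniteDimensional F V] in
theorem siegel {a u : V} (hu : Q u = 0) (h : Q.polarBilin a u = 0) (ha : Q a ≠ 0) (z : V) :
    (rf Q a).1 ((rf Q (a + Q a • u)).1 z) =
      z + Q.polarBilin a z • u + Q.polarBilin u z • a + (Q a * Q.polarBilin u z) • u := by
  have : Q (a + Q a • u) = Q a := by simp [-polarBilin_apply_apply, Q_add, Q.map_smul, hu, h]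
  simp only [rf_apply, this, map_add, LinearMap.map_smul, B_self, h, LinearMap.add_apply,
    LinearMap.smul_apply, smul_eq_mul]
  rw [← add_zero (_ + _ + _ + _), ← two' F (((Q a)⁻¹ * Q.polarBilin a z) • a)]
  match_scalars <;> field_simp <;> ring

variable [Finite F] (nd : NDg Q) (h6 : 6 < finrank F V)
include nd h6

theorem ab_rf {a b : V} (ha : Q a ≠ 0) (hb : Q b ≠ 0) :
    Abelianization.of (⟨_, rf_mem a⟩ : Og Q) = Abelianization.of ⟨_, rf_mem b⟩ := by
  have k : ∀ {a b : V}, Q a ≠ 0 → Q b ≠ 0 → Q.polarBilin a b ≠ 0 →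
      Abelianization.of (⟨_, rf_mem a⟩ : Og Q) = Abelianization.of ⟨_, rf_mem b⟩ :=
    fun {a b} ha hb h => by
      obtain ⟨c, hc⟩ := FiniteField.isSquare_of_char_two (ringChar.eq F 2) (Q a / Q b)
      have c0 : c ≠ 0 := fun e => div_ne_zero ha hb (by simp [hc, e])
      have h1 : Q (a + c • b) = c * Q.polarBilin a b := by
        rw [Q_add, Q.map_smul, ← hc, smul_eq_mul, div_mul_cancel₀ _ hb, CharTwo.add_self_eq_zero,
          zero_add, LinearMap.map_smul, smul_eq_mul]
      have h2 : (rf Q (a + c • b)).1 a = c • b := by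
        rw [rf_apply, h1, B_comm (_ + _), map_add, B_self, zero_add, LinearMap.map_smul, smul_eq_mul,
          inv_mul_cancel₀ (mul_ne_zero c0 h), one_smul, ← add_assoc, two' F, zero_add]
      have : (⟨_, rf_mem b⟩ : Og Q) = ⟨_, rf_mem (a + c • b)⟩ * ⟨_, rf_mem a⟩ *
          (⟨_, rf_mem (a + c • b)⟩ : Og Q)⁻¹ :=
        Subtype.ext ((rf_conj (rf_mem _) a).trans (by rw [h2, rf_smul c0])).symm
      rw [this, map_mul, map_mul, map_inv, mul_inv_cancel_comm]
  obtain ⟨c, h1, h2⟩ : ∃ c, Q.polarBilin a c ≠ 0 ∧ Q.polarBilin b c ≠ 0 := by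
    obtain ⟨y, hy⟩ := not_forall.1 (mt (nd a) fun e => ha (by simp [e]))
    obtain ⟨z, hz⟩ := not_forall.1 (mt (nd b) fun e => hb (by simp [e]))
    by_contra! n
    exact hz (by simpa [-polarBilin_apply_apply, n y hy] using n (y + z) (by
      rwa [map_add, of_not_not (mt (n z) hz), add_zero]))
  obtain ⟨c, h1, h2, h3⟩ : ∃ c, Q.polarBilin a c ≠ 0 ∧ Q.polarBilin b c ≠ 0 ∧ Q c ≠ 0 := by
    by_cases h : Q c = 0
    · obtain ⟨e, e1, e2, e3, e4⟩ := ns3 nd h6 a b c
      exact ⟨c + e, by rwa [map_add, e1, add_zero], by rwa [map_add, e2, add_zero],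
        by rwa [Q_add, h, e3, zero_add, add_zero]⟩
    · exact ⟨c, h1, h2, h⟩
  exact (k ha h3 h1).trans (k hb h3 h2).symm

theorem ab_eq {a : V} (ha : Q a ≠ 0) (n : ℕ) : ∀ g : Og Q, rk g.1 = n →
    Abelianization.of g = Abelianization.of (⟨_, rf_mem a⟩ : Og Q) ^ rk g.1 := by
  have sq : Abelianization.of (⟨_, rf_mem a⟩ : Og Q) ^ 2 = 1 := by
    rw [← map_pow, show _ ^ 2 = (1 : Og Q) from Subtype.ext (by rw [SubmonoidClass.coe_pow, _root_.sq]; exact mul_inv_cancel (rf Q a)), map_one]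
  have st : ∀ b (g : Og Q), Q b ≠ 0 → Abelianization.of (⟨_, rf_mem b⟩ * g) =
      Abelianization.of (⟨_, rf_mem a⟩ : Og Q) ^ rk (rf Q b * g.1) →
      Abelianization.of g = Abelianization.of (⟨_, rf_mem a⟩ : Og Q) ^ rk g.1 := fun b g hb e => by
    have := rk_mul nd (rf_mem b) g.2
    rw [rk_rf nd hb] at this
    rw [map_mul, ab_rf nd h6 hb ha, pow_eq_pow_mod _ sq, this, ← pow_eq_pow_mod _ sq, pow_add,
      pow_one] at e
    exact mul_left_cancel e
  induction n using Nat.strong_induction_on with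
  | _ n ih =>
    intro g hn
    have lt : ∀ h : Og Q, (∀ z, g.1.1 z = z → h.1.1 z = z) → ∀ y, (g.1.1 + 1) y ≠ 0 →
        h.1.1 (g.1.1 y) = y → Abelianization.of (h * g) =
        Abelianization.of (⟨_, rf_mem a⟩ : Og Q) ^ rk (h * g).1 := fun h h1 y hy h2 => by
      refine ih _ ?_ _ rfl
      have := Submodule.finrank_lt_finrank_of_lt (show ker (g.1.1 + 1) < ker ((h * g).1.1 + 1) from
        ⟨fun z hz => by
          have : g.1.1 z = z := by rw [← add_zero (g.1.1 z), ← two' F z, ← add_assoc]; simpa using hz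
          exact (congrArg (· + z) ((congrArg h.1.1 this).trans (h1 z this))).trans (two' F z),
        fun l => hy (l ((congrArg (· + y) h2).trans (two' F y)))⟩)
      have h3 := (g.1.1 + 1).finrank_range_add_finrank_ker
      have h4 := ((h * g).1.1 + 1).finrank_range_add_finrank_ker
      simp only [rk] at *; omega
    have o : ∀ y z, g.1.1 z = z → Q.polarBilin ((g.1.1 + 1) y) z = 0 := fun y z e => by
      rw [LinearMap.add_apply, map_add, LinearMap.add_apply, ← e, Og.iso g.2, e]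
      exact CharTwo.add_self_eq_zero _
    have gy : ∀ y, g.1.1 y = y + (g.1.1 + 1) y := fun y => by
      rw [LinearMap.add_apply, add_comm (_ : V), add_assoc, End.one_apply, two' F, add_zero]
    by_cases q : ∀ y, Q ((g.1.1 + 1) y) = 0
    swap
    · obtain ⟨y, hy⟩ := not_forall.1 q
      refine st _ g hy (lt ⟨_, rf_mem _⟩ (fun z e => by rw [rf_apply, o y z e]; simp) y
        (fun e => hy (by simp [e])) ?_)
      rw [rf_apply, gy y, map_add, B_self, add_zero, ← Og.q_N g.2, inv_mul_cancel₀ hy, one_smul,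
        add_assoc, two' F, add_zero]
    by_cases g1 : ∀ y, (g.1.1 + 1) y = 0
    · rw [rk, range_eq_bot.2 (LinearMap.ext g1), finrank_bot, pow_zero, show g = 1 from
        Subtype.ext (Units.ext (LinearMap.ext fun y => by rw [gy, g1]; simp)), map_one]
    obtain ⟨y, hy⟩ := not_forall.1 g1
    obtain ⟨y', hy'⟩ := not_forall.1 (mt (nd _) hy)
    obtain ⟨w, hw, w1, w2⟩ : ∃ w, Q.polarBilin w y = 1 ∧ w ∈ range (g.1.1 + 1) ∧ Q w = 0 := by
      refine ⟨(g.1.1 + 1) ((Q.polarBilin ((g.1.1 + 1) y) y')⁻¹ • y'), ?_, ⟨_, rfl⟩, q _⟩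
      have := Og.q_N g.2 (y + y')
      rw [q] at this
      simp only [q, map_add, LinearMap.add_apply (Q.polarBilin _), ← Og.q_N g.2] at this
      rw [LinearMap.map_smul, LinearMap.map_smul, LinearMap.smul_apply, smul_eq_mul,
        inv_mul_eq_one₀ hy']
      linear_combination this + Q.polarBilin ((g.1.1 + 1) y) y' * CharTwo.two_eq_zero (R := F)
    obtain ⟨y', rfl⟩ := w1
    have uw : Q.polarBilin ((g.1.1 + 1) y') ((g.1.1 + 1) y) = 0 := by
      have := Q_add (Q := Q) ((g.1.1 + 1) y') ((g.1.1 + 1) y)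
      rwa [← map_add, q, q, q, add_zero, zero_add, eq_comm] at this
    have uy : Q.polarBilin ((g.1.1 + 1) y) y = 0 := by rw [← Og.q_N g.2, q]
    have qu := q y
    have o1 := o y
    have o2 := o y'
    have gy := gy y
    have lt := fun h h1 => lt h h1 y hy
    generalize (g.1.1 + 1) y = u at *
    generalize (g.1.1 + 1) y' = w at *
    obtain ⟨e, e1, e2, -, e4⟩ := ns3 nd h6 u w 0
    have q1 : Q (e + w) = Q e := by rw [Q_add, w2, B_comm, e2, add_zero, add_zero]
    have b1 : Q.polarBilin (e + w) u = 0 := by rw [map_add, LinearMap.add_apply, B_comm, e1, uw, add_zero]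
    have q2 : ∀ a, Q.polarBilin a u = 0 → Q (a + Q a • u) = Q a := fun a h => by
      simp [-polarBilin_apply_apply, Q_add, Q.map_smul, qu, h]
    have S : ∀ z, (rf Q e).1 ((rf Q (e + Q e • u)).1 ((rf Q (e + w)).1
        ((rf Q (e + w + Q (e + w) • u)).1 z))) = z + Q.polarBilin w z • u + Q.polarBilin u z • w :=
      fun z => by
        rw [siegel qu b1 (q1 ▸ e4), siegel qu (by rw [B_comm, e1]) e4]
        simp only [map_add, LinearMap.map_smul, B_self, B_comm e u, e1, B_comm e w, e2, B_comm u w, uw,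
          q1, LinearMap.add_apply, smul_eq_mul]
        match_scalars <;> grind
    refine st _ g (by rw [q2 _ b1, q1]; exact e4) (st _ (⟨_, rf_mem _⟩ * g) (q1 ▸ e4)
      (st _ (⟨_, rf_mem (e + w)⟩ * (⟨_, rf_mem (e + w + Q (e + w) • u)⟩ * g))
      (by rw [q2 _ (by rw [B_comm, e1])]; exact e4) (st _ (⟨_, rf_mem (e + Q e • u)⟩ * _) e4 ?_)))
    have := lt (⟨_, rf_mem e⟩ * (⟨_, rf_mem (e + Q e • u)⟩ * (⟨_, rf_mem (e + w)⟩ *
      ⟨_, rf_mem (e + w + Q (e + w) • u)⟩))) (fun z h => (S z).trans (by rw [o1 z h, o2 z h]; simp))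
      ((S _).trans (by
        rw [gy, map_add, map_add, hw, uw, uy, B_self]; simp [add_assoc, two' F]))
    rw [mul_assoc, mul_assoc, mul_assoc] at this
    exact this

theorem comm_iff (g : Og Q) : g ∈ commutator (Og Q) ↔ Even (rk g.1) := by
  obtain ⟨a, -, -, -, ha⟩ := ns3 nd h6 0 0 0
  refine ⟨fun h => ?_, fun ⟨k, hk⟩ => ?_⟩
  · let δ : Og Q →* Multiplicative (ZMod 2) := MonoidHom.mk' (fun g => .ofAdd (rk g.1 : ZMod 2))
      fun x y => congrArg _ (((ZMod.natCast_eq_natCast_iff _ _ _).2 (rk_mul nd x.2 y.2)).trans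
        (Nat.cast_add _ _))
    exact (ZMod.natCast_eq_zero_iff_even).1 (Abelianization.commutator_subset_ker δ h)
  · rw [← Abelianization.ker_of, MonoidHom.mem_ker, ab_eq nd h6 ha _ g rfl, hk, ← two_mul, pow_mul,
      ← map_pow, show _ ^ 2 = (1 : Og Q) from Subtype.ext (by
        rw [SubmonoidClass.coe_pow, _root_.sq]; exact mul_inv_cancel (rf Q a)), map_one, one_pow]

omit nd h6 [FiniteDimensional F V] in
theorem fs_omega {ι : Type} [Fintype ι] [DecidableEq ι] (Q : QuadraticForm F (ι → F)) (nd : NDg Q)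
    (h6 : 6 < Fintype.card ι) (h4 : 4 ∣ Fintype.card ι) (χ : IrrCharacter (Omega F Q)) :
    (Nat.card (Omega F Q) : ℂ)⁻¹ * ∑ᶠ s, (χ : Omega F Q → ℂ) (s * s) = 1 := by
  have := Fintype.ofFinite (isometryGroup F Q)
  have := Fintype.ofFinite (Omega F Q)
  rw [← finrank_fintype_fun_eq_card F] at h6 h4
  let e : isometryGroup F Q ≃* Og Q := (Matrix.GeneralLinearGroup.toLin.subgroupMap _).trans
    (MulEquiv.subgroupCongr (Subgroup.ext fun x => ⟨by
      rintro ⟨A, hA, rfl⟩; exact fun y => hA y y, fun hx =>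
      ⟨Matrix.GeneralLinearGroup.toLin.symm x, fun y _ => (congrArg (fun z => Q (z.1 y))
        (Matrix.GeneralLinearGroup.toLin.apply_symm_apply x)).trans (hx y),
        MulEquiv.apply_symm_apply _ _⟩⟩))
  have c : ∀ x, x ∈ Omega F Q ↔ Even (rk (e x).1) := fun x => by
    rw [← comm_iff nd h6, Omega, ← Abelianization.ker_of, ← Abelianization.ker_of]
    exact (e.abelianizationCongr.map_eq_one_iff (x := Abelianization.of x)).symm
  rw [finsum_eq_sum_of_fintype]
  refine fs_index_two _ ?_ (fun ψ hψ => ?_) (fun h => ?_) χ.2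
  · obtain ⟨a, -, -, -, ha⟩ := ns3 nd h6 0 0 0
    refine Subgroup.index_eq_two_iff.2 ⟨e.symm ⟨_, rf_mem a⟩, fun x => ?_⟩
    have := rk_mul nd (e x).2 (rf_mem a)
    rw [rk_rf nd ha] at this
    rw [c, c, map_mul, MulEquiv.apply_symm_apply, Subgroup.coe_mul, Nat.even_iff, Nat.even_iff]
    simp only [Nat.ModEq, Xor, Xor'] at *; omega
  · have := fs_orth Q nd ⟨ψ, hψ⟩
    rwa [finsum_eq_sum_of_fintype] at this
  · obtain ⟨x, hx, i, r⟩ := pr_aux _ _ rfl Q nd _ (e h).2
    refine isConj_iff.2 ⟨⟨e.symm ⟨x, hx⟩, (c _).2 ?_⟩, Subtype.ext (e.injective (Subtype.ext ?_))⟩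
    · rw [MulEquiv.apply_symm_apply, Nat.even_iff]
      simp only [Nat.ModEq] at r ⊢; omega
    · simp only [Subgroup.coe_mul, Subgroup.coe_inv, map_mul, map_inv, MulEquiv.apply_symm_apply]
      rw [mul_inv_eq_iff_eq_mul, eq_inv_mul_iff_mul_eq, ← mul_assoc, i]

end Cfsg.Agent.FS
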