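import Cfsg.Agent.FS.Main
import Cfsg.Agent.FS.R1

/-! Wonenburger's theorem with an involution; transfer to quadratic forms over finite fields. -/

set_option autoImplicit false

namespace Cfsg.Agent.FS

open Equiv

namespace Pre

variable {S V : Type*} [CommRing S] {σ : S →+* S} [AddCommGroup V] [Module S V] (G : Pre σ V)

/-- there is a semilinear isometric involution -/
def Ok2 : Prop := ∃ x : Perm V, (∀ y z, G.b (x y) (x z) = G.b y z) ∧
  (∀ (a : S) y, x (a • y) = σ a • x y) ∧ ∀ y, x (x y) = y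

variable [Finite V]

theorem mk2 {F : Type*} (p p' : F → V) (hp : Function.Surjective p)
    (s : ∀ f, ∃ g, p g = p' f ∧ p' g = p f) (i : ∀ f g, G.b (p' f) (p' g) = G.b (p f) (p g))
    (l : ∀ (a : S) f, ∃ g, p g = a • p f ∧ p' g = σ a • p' f) : G.Ok2 := by
  have k : ∀ f, p' (Function.surjInv hp (p f)) = p' f := fun f => G.ext' fun z => by
    obtain ⟨g, rfl⟩ := hp z
    obtain ⟨g, -, e⟩ := s g
    rw [← e, i, i, Function.surjInv_eq hp]
  have i' : ∀ y z, G.b (p' (Function.surjInv hp y)) (p' (Function.surjInv hp z)) = G.b y z :=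
    fun y z => by rw [i, Function.surjInv_eq hp, Function.surjInv_eq hp]
  refine ⟨Equiv.ofBijective _ (Finite.injective_iff_bijective.1 fun y z e => G.ext' fun t => by
    rw [← i', e, i']), i', fun a y => ?_, fun y => ?_⟩ <;> obtain ⟨f, rfl⟩ := hp y
  · obtain ⟨g, h1, h2⟩ := l a f
    rw [← h1]
    exact (k g).trans (h2.trans (congrArg _ (k f).symm))
  · obtain ⟨g, h1, h2⟩ := s f
    simp only [ofBijective_apply, k, ← h1, h2]

theorem glue2 {W : Submodule S V} (h : G.ND W) (h1 : (G.res _ (G.nd_perp h)).Ok2)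
    (h2 : (G.res W h).Ok2) : G.Ok2 := by
  obtain ⟨x, i, l, s⟩ := h1
  obtain ⟨x', i', l', s'⟩ := h2
  have o : ∀ (u : G.perp W) (w : W), G.b w u = 0 ∧ G.b u w = 0 := fun u w =>
    ⟨u.2 w w.2, (G.symm _ _).trans (u.2 w w.2)⟩
  refine G.mk2 (fun f : G.perp W × W => f.1 + f.2) (fun f => x f.1 + x' f.2) (fun y => ?_)
    (fun f => ⟨(x f.1, x' f.2), rfl, by simp [s, s']⟩) (fun f g => ?_)
    fun a f => ⟨a • f, by simp, by simp [l, l']⟩
  · obtain ⟨u, w, e⟩ := G.dec h y
    exact ⟨(u, w), e.symm⟩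
  · have a : G.b (x f.1) (x g.1) = G.b f.1 g.1 := i _ _
    have a' : G.b (x' f.2) (x' g.2) = G.b f.2 g.2 := i' _ _
    simp [o, a, a']

theorem block2 {v w : V} (hv : ∀ a : S, a • v = 0 → ∀ x : V, a • x = 0)
    (h1 : ∀ c : S, (∀ s : S, G.b (c • w) (s • v) = 0) → c • w = 0)
    (h2 : ∀ a : S, (∀ s : S, G.b (s • w) (a • v) = 0) → a • v = 0)
    (gen : ∀ y, ∃ a c : S, a • v + c • w = y) : G.Ok2 := by
  choose r hr using fun u : S ∙ v => Submodule.mem_span_singleton.1 u.2
  have k : ∀ {a c : S}, a • v = c • v → σ a • v = σ c • v := fun {a c} e =>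
    sub_eq_zero.1 (by rw [← sub_smul, ← map_sub]; exact G.kill (hv _ (by rw [sub_smul, e, sub_self])) v)
  obtain ⟨t, ht⟩ := G.frob h1 h2 (AddMonoidHom.mk' (fun u => G.b w (σ (r u) • v)) fun u u' => by
    rw [← map_add, ← add_smul, ← map_add, k (c := r u + r u') (by rw [add_smul, hr, hr, hr]; rfl)])
  replace ht : ∀ s, G.b (t • w) (s • v) = G.b w (σ s • v) := fun s => by
    rw [ht, AddMonoidHom.mk'_apply, k (hr _)]
  have tt : ∀ x : V, (σ t * t) • x = x := fun x => sub_eq_zero.1 (by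
    rw [← one_smul S x, ← mul_smul, mul_one, ← sub_smul]
    refine hv _ (h2 _ fun s => ?_) x
    have a1 := ht (t * σ s)
    have a2 := ht s
    rw [G.adj] at a1 a2
    rw [map_mul, mul_smul (σ t), G.σσ, a2] at a1
    rw [sub_smul, map_sub, one_smul, G.adj, G.adj, ← a1, smul_smul, smul_smul, sub_eq_zero]
    congr 2; ring)
  have sy : ∀ (a c : S) (x : V), G.b (σ a • x) (σ c • x) = G.b (a • x) (c • x) := fun a c x => by
    rw [G.adj, G.σσ, smul_comm, ← G.adj, G.symm]
  have cr : ∀ a c : S, G.b (σ c • t • w) (σ a • v) = G.b (c • w) (a • v) := fun a c => by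
    rw [G.adj, G.σσ, ← mul_smul, ht, map_mul, mul_smul, G.σσ, G.adj]
  refine G.mk2 (fun f : S × S => f.1 • v + f.2 • w) (fun f => σ f.1 • v + σ f.2 • t • w)
    (fun y => ?_) (fun f => ?_) (fun f g => ?_) fun a f => ⟨a • f, by simp [mul_smul], by
      simp [mul_smul]⟩
  · obtain ⟨a, c, e⟩ := gen y
    exact ⟨(a, c), e⟩
  · refine ⟨(σ f.1, σ f.2 * t), by simp [mul_smul], ?_⟩
    beta_reduce
    rw [map_mul, mul_smul, ← mul_smul (σ t), tt, G.σσ, G.σσ]
  · simp only [map_add, AddMonoidHom.add_apply, sy, cr, G.symm (_ • v) (_ • w), G.symm (_ • v) (_ • _ • w)]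
    rw [smul_comm f.2 t, smul_comm g.2 t, G.adj t, ← mul_smul (σ t), tt]

theorem simple2 [IsDomain S] [IsPrincipalIdealRing S] (h : ∀ W, G.ND W → W = ⊥ ∨ W = ⊤) : G.Ok2 := by
  rcases subsingleton_or_nontrivial V with _ | _
  · exact ⟨1, fun _ _ => rfl, fun _ _ => Subsingleton.elim _ _, fun _ => rfl⟩
  have fit : ∀ a : S, σ a • (1 : Module.End S V) = a • 1 →
      (∀ x : V, a • x = 0 → x = 0) ∨ ∃ n, ∀ x : V, a ^ n • x = 0 := fun a ha => by
    obtain ⟨n, hn, n1⟩ := ((LinearMap.eventually_isCompl_ker_pow_range_pow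
      (a • (1 : Module.End S V))).and (Filter.eventually_ge_atTop 1)).exists
    have e : ∀ x, ((a • (1 : Module.End S V)) ^ n) x = a ^ n • x := fun x => by simp [smul_pow]
    have e' : ∀ x : V, σ (a ^ n) • x = a ^ n • x := fun x => by rw [← e, ← ha]; simp [smul_pow]
    refine (h (LinearMap.ker ((a • (1 : Module.End S V)) ^ n)) fun w hw hw' =>
      G.nd w fun y => ?_).imp (fun k x hx => ?_)
      fun k => ⟨n, fun x => (e x).symm.trans (Submodule.eq_top_iff'.1 k x)⟩
    · obtain ⟨u, hu, _, ⟨z, rfl⟩, rfl⟩ :=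
        Submodule.mem_sup.1 (hn.sup_eq_top ▸ Submodule.mem_top (x := y))
      rw [map_add, G.symm, hw' u hu, e, G.adj', e', ← e, LinearMap.mem_ker.1 hw]; simp
    · refine (Submodule.eq_bot_iff _).1 k x ((e x).trans ?_)
      rw [← Nat.sub_add_cancel n1, pow_succ, mul_smul, hx, smul_zero]
  obtain ⟨v, hv⟩ := Module.exists_ker_toSpanSingleton_eq_annihilator S (M := V)
  replace hv : ∀ a : S, a • v = 0 → ∀ x : V, a • x = 0 := fun a ha =>
    Module.mem_annihilator.1 (hv ▸ ha : a ∈ Module.annihilator S V)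
  obtain ⟨w, hw⟩ := Module.exists_ker_toSpanSingleton_eq_annihilator S (M := V ⧸ G.perp (S ∙ v))
  obtain ⟨w, rfl⟩ := Submodule.Quotient.mk_surjective _ w
  have v0 : v ≠ 0 := fun e => by
    obtain ⟨y, hy⟩ := exists_ne (0 : V)
    exact hy (by simpa using hv 1 (by simp [e]) y)
  have h1 : ∀ c : S, (∀ s : S, G.b (c • w) (s • v) = 0) → ∀ x : V, c • x = 0 := fun c hc x => by
    have : c ∈ Module.annihilator S (V ⧸ G.perp (S ∙ v)) := hw ▸
      (Submodule.Quotient.mk_eq_zero _).2 fun u hu => by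
        obtain ⟨s, rfl⟩ := Submodule.mem_span_singleton.1 hu
        exact (G.symm _ _).trans (hc s)
    rw [← G.σσ]
    refine G.kill (hv _ (G.nd _ fun y => ?_)) x
    rw [← G.adj']
    exact (Submodule.Quotient.mk_eq_zero _).1 (Module.mem_annihilator.1 this
      (Submodule.Quotient.mk y)) v (Submodule.mem_span_singleton_self v)
  have h2 : ∀ a : S, (∀ s : S, G.b (s • w) (a • v) = 0) → ∀ x : V, a • x = 0 := fun a ha x => by
    rw [← G.σσ]
    exact G.kill (h1 _ fun s => by rw [G.adj, G.σσ, smul_comm, G.adj', ha]) x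
  obtain ⟨α, hα⟩ := G.frob (fun c h => h1 c h w) (fun a h => h2 a h v)
    ((G.b v).comp (S ∙ v).subtype.toAddMonoidHom)
  replace hα : ∀ a s : S, G.b ((a * α) • w) (s • v) = G.b (a • v) (s • v) := fun a s => by
    rw [mul_smul, G.adj, G.adj a, ← mul_smul]; exact hα _
  obtain ⟨β, hβ⟩ := G.frob (v := w) (w := v) (fun c h => h2 c (fun s => by rw [G.symm, h]) v)
    (fun c h => h1 c (fun s => by rw [G.symm, h]) w) ((G.b w).comp (S ∙ w).subtype.toAddMonoidHom)
  replace hβ : ∀ a s : S, G.b ((a * β) • v) (s • w) = G.b (a • w) (s • w) := fun a s => by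
    rw [mul_smul, G.adj, G.adj a, ← mul_smul]; exact hβ _
  rcases fit (α * σ α) (LinearMap.ext fun x => by simp [mul_smul, G.σσ, smul_comm α]) with k | ⟨n, k⟩
  · have nd : ∀ c : S, (∀ s : S, G.b (c • v) (s • v) = 0) → c • v = 0 := fun c hc => k _ (by
      rw [← mul_smul, show α * σ α * c = σ α * (c * α) by ring, mul_smul,
        h1 (c * α) fun s => by rw [hα, hc], smul_zero])
    refine G.block2 hv nd (fun a ha => nd a fun s => by rw [G.symm, ha]) fun y => ?_
    obtain ⟨a, e⟩ := Submodule.mem_span_singleton.1 (Submodule.eq_top_iff'.1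
      ((h (S ∙ v) fun u hu hu' => by
        obtain ⟨c, rfl⟩ := Submodule.mem_span_singleton.1 hu
        exact nd c fun s => by
          rw [G.symm]; exact hu' _ (Submodule.mem_span_singleton.2 ⟨s, rfl⟩)).resolve_left
        (by simpa using v0)) y)
    exact ⟨a, 0, by simp [e]⟩
  have m : ∀ {y}, y ∈ (S ∙ v) ⊔ (S ∙ w) ↔ ∃ a c : S, a • v + c • w = y := by
    simp [Submodule.mem_sup, Submodule.mem_span_singleton]
  refine G.block2 hv (fun c h => h1 c h w) (fun a h => h2 a h v) fun y => m.1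
    (Submodule.eq_top_iff'.1 ((h _ fun u hu hu' => ?_).resolve_left fun e => v0 ?_) y)
  swap
  · exact (Submodule.eq_bot_iff _).1 e v (m.2 ⟨1, 0, by simp⟩)
  have J : ∀ (j : ℕ) (c : S), (∀ x : V, (c * σ α ^ j) • x = 0) → ∀ x : V, (c * α ^ j) • x = 0 :=
    fun j => by
      induction j with
      | zero => simp
      | succ j ih =>
        intro c hc
        have := ih (c * σ α) (by simpa [pow_succ', mul_assoc] using hc)
        rw [pow_succ, ← mul_assoc]
        refine h1 _ fun s => ?_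
        have k := G.kill this w
        rw [mul_right_comm, map_mul, mul_smul, G.σσ, ← mul_smul] at k
        rw [hα, G.adj, G.symm, smul_comm, G.adj, ← hα, k]
        simp
  have nil := J n (α ^ n) (by simpa [mul_pow] using k)
  obtain ⟨a, c, rfl⟩ := m.1 hu
  have e1 := h1 (a * α + c) fun s => by
    have := hu' _ (m.2 ⟨s, 0, rfl⟩)
    rw [zero_smul, add_zero, G.symm] at this
    rw [add_smul, map_add, AddMonoidHom.add_apply, hα]; simpa using this
  have e2 : ∀ x : V, c • x = (a * α) • x := fun x => by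
    rw [← zero_add (c • x), ← G.two ((a * α) • x), add_assoc, ← add_smul, e1, add_zero]
  have e3 := h2 (a + a * α * β) fun s => by
    have := hu' _ (m.2 ⟨0, s, rfl⟩)
    rw [zero_smul, zero_add, e2] at this
    rw [add_smul, map_add, G.symm _ ((_ * β) • v), hβ, G.symm (_ • w) (s • w)]; simpa using this
  have e4 : ∀ (j : ℕ) (x : V), a • x = (a * (α * β) ^ j) • x := fun j x => by
    induction j with
    | zero => simp
    | succ j ih =>
      rw [ih, ← zero_add (_ • x), ← e3 ((α * β) ^ j • x), add_smul, ← mul_smul, ← mul_smul,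
        add_right_comm, G.two, zero_add]
      congr 1; ring
  have e5 : ∀ x : V, a • x = 0 := fun x => by
    rw [e4 (n + n), mul_pow, mul_comm (α ^ _), ← mul_assoc, mul_smul, pow_add α, nil, smul_zero]
  rw [e2, mul_smul, e5, e5, add_zero]

end Pre

theorem Pre.ok2_aux {S : Type*} [CommRing S] [IsDomain S] [IsPrincipalIdealRing S] {σ : S →+* S}
    (n : ℕ) : ∀ (V : Type*) [AddCommGroup V] [Module S V] [Finite V], Nat.card V = n →
      ∀ G : Pre σ V, G.Ok2 := by
  induction n using Nat.strong_induction_on with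
  | _ n ih =>
    intro V _ _ _ hV G
    by_cases h : ∀ W, G.ND W → W = ⊥ ∨ W = ⊤
    · exact G.simple2 h
    push Not at h
    obtain ⟨W, nd, h0, h1⟩ := h
    have lt : ∀ U : Submodule S V, U ≠ ⊤ → Nat.card U < n := fun U hU => hV ▸
      Finite.card_subtype_lt (p := (· ∈ U)) (not_forall.1 (mt Submodule.eq_top_iff'.2 hU)).choose_spec
    exact G.glue2 nd (ih _ (lt _ fun e => h0 (eq_bot_iff.2 fun w hw => nd w hw
      (Submodule.eq_top_iff'.1 e w))) _ rfl _) (ih _ (lt _ h1) _ rfl _)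

open Polynomial in
theorem Geo.real2 {F V : Type*} [Field F] [StarRing F] [AddCommGroup V] [Module F V] [Finite V]
    {G : Geo F V} (tr : Triv F V) {g : Perm V} (m : G.Mem G.q0 0 (g, 1)) :
    ∃ x : Perm V, G.Mem G.q0 0 (x, 1) ∧ (∀ y, g (x (g y)) = x y) ∧ ∀ y, x (x y) = y := by
  let L : Module.End F V := ⟨⟨g, m.add⟩, m.lin1 rfl⟩
  have hL : ∀ (k : ℕ) y, (L ^ k) y = (g ^ k) y := fun k y => by
    rw [Module.End.pow_apply, Perm.coe_pow]; rfl
  have ho : ∀ y, g ((L ^ (orderOf g - 1)) y) = y := fun y => by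
    rw [hL, ← Perm.mul_apply, ← pow_succ', Nat.sub_add_cancel (orderOf_pos g), pow_orderOf_eq_one]; rfl
  let _ : Module F[X] V := Module.compHom V (aeval L).toRingHom
  have sm : ∀ (a : F[X]) (y : V), a • y = aeval L a y := fun _ _ => rfl
  obtain ⟨x, i, l, s⟩ := Pre.ok2_aux (σ := (expand F (orderOf g - 1)).toRingHom) _ V rfl
    ⟨G.b, G.symm, G.nd, fun a => by
      induction a using Polynomial.induction_on with
      | C a => intro x y; simp [sm, G.adj, tr a]
      | add p q h1 h2 => intro x y; simp only [add_smul, map_add, AddMonoidHom.add_apply, h1, h2]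
      | monomial n a h =>
        intro x y
        rw [pow_succ, ← mul_assoc, mul_smul, h, map_mul _ _ X, mul_smul, smul_comm _ _ y,
          ← m.iso x]
        generalize (expand F (orderOf g - 1)).toRingHom (C a * X ^ n) • y = u
        simp [sm, ho]; rfl⟩
  refine ⟨x, ⟨i, fun a y => by simpa [sm] using l (C a) y, fun _ => rfl, by simpa using l 0 0⟩,
    fun y => ?_, s⟩
  have := l X y
  simp only [sm, aeval_X] at this
  rw [show g y = L y from rfl, this]
  simp [ho]

section
open Module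

variable {F V : Type*} [Field F] [Finite F] [CharP F 2] [AddCommGroup V] [Module F V] [Finite V]
  {Q : QuadraticForm F V} {g : (End F V)ˣ}

omit [Finite V] in
theorem exists_geo (nd : NDg Q) : letI : StarRing F := starRingOfComm
    ∃ (G : Geo F V) (Q' : G.Quad), (∀ g ∈ Og Q, G.Mem Q' 0 (MulAction.toPerm g, 1)) ∧
      (∀ x : Perm V, G.Mem G.q0 0 (x, 1) → ∃ x' : (End F V)ˣ, (∀ y, x'.1 y = x y) ∧
        ∀ y z, Q.polarBilin (x y) (x z) = Q.polarBilin y z) ∧
      ∀ x : Perm V, G.Mem Q' 0 (x, 1) → ∀ y, Q (x y) = Q y := by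
  have := Fintype.ofFinite F
  let _ : StarRing F := starRingOfComm
  obtain ⟨T, T1, -⟩ := sep (B := F) CharTwo.add_self_eq_zero ⊥ (x := 1) (by simp)
  have T2 : ∀ a c : F, (∀ s, T (s * s * a) = T (s * s * c)) → a = c := fun a c h => by
    by_contra n
    obtain ⟨r, hr⟩ := FiniteField.isSquare_of_char_two (ringChar.eq F 2) (a - c)⁻¹
    exact T1 (by rw [← inv_mul_cancel₀ (sub_ne_zero.2 n), hr, mul_sub, map_sub, h, sub_self])
  let G : Geo F V :=
    { b := AddMonoidHom.mk' (fun x => T.comp (Q.polarBilin x).toAddMonoidHom) fun x y => by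
        ext; simp [-QuadraticMap.polarBilin_apply_apply]
      symm x y := congrArg T (B_comm x y)
      alt x := (congrArg T (B_self x)).trans (map_zero T)
      nd x h := nd x fun y => T2 _ _ fun s => by
        simpa [-QuadraticMap.polarBilin_apply_apply] using h ((s * s) • y)
      adj a x y := congrArg T (show Q.polarBilin _ _ = Q.polarBilin x (a • y) by simp)
      red a := by
        obtain ⟨n, -, hn⟩ := FiniteField.card F 2
        exact ⟨n, n.2, fun x => by rw [← hn, FiniteField.pow_card]⟩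
      gen a := Subring.subset_closure (Or.inl rfl) }
  have hb : ∀ x y, G.b x y = T (Q.polarBilin x y) := fun _ _ => rfl
  refine ⟨G, ⟨fun x => T (Q x), 1, fun x y => by rw [Q_add, map_add, map_add, hb, one_mul], by simp⟩,
    fun g hg => ⟨fun x y => congrArg T (Og.iso hg x y), fun a x => g.1.map_smul a x,
      fun x => congrArg T (hg x), g.1.map_zero⟩, fun x m => ⟨LinearMap.GeneralLinearGroup.ofLinearEquiv
      { x with map_add' := m.add, map_smul' := m.lin1 rfl }, fun _ => rfl,
      fun y z => T2 _ _ fun s => ?_⟩,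
    fun x m y => T2 _ _ fun s => ?_⟩
  · have := m.iso ((s * s) • y) z
    rw [m.lin1 rfl] at this
    simpa [hb, -QuadraticMap.polarBilin_apply_apply] using this
  · have := m.q (s • y)
    rw [m.lin1 rfl] at this
    simpa [QuadraticMap.map_smul] using this

theorem realQ (nd : NDg Q) (hg : g ∈ Og Q) : ∃ x ∈ Og Q, g * x * g = x := by
  let _ : StarRing F := starRingOfComm
  obtain ⟨G, Q', h1, h2, h3⟩ := exists_geo nd
  obtain ⟨x, m, e⟩ := Geo.real (fun _ _ => rfl) (h1 g hg)
  obtain ⟨x', e', -⟩ := h2 x ⟨m.iso, m.lin, fun _ => rfl, m.fix⟩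
  exact ⟨x', fun y => by rw [e', h3 x m], Units.ext (LinearMap.ext fun y => by
    simp only [Units.val_mul, End.mul_apply, e']; exact e y)⟩

theorem realI (nd : NDg Q) (hg : g ∈ Og Q) : ∃ x : (End F V)ˣ,
    (∀ y z, Q.polarBilin (x.1 y) (x.1 z) = Q.polarBilin y z) ∧ g * x * g = x ∧ x * x = 1 := by
  let _ : StarRing F := starRingOfComm
  obtain ⟨G, Q', h1, h2, -⟩ := exists_geo nd
  have m := h1 g hg
  obtain ⟨x, m, e, s⟩ := Geo.real2 (G := G) (g := MulAction.toPerm g) (fun _ _ => rfl)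
    ⟨m.iso, m.lin, fun _ => rfl, m.fix⟩
  obtain ⟨x', e', i⟩ := h2 x m
  exact ⟨x', fun y z => by rw [e', e', i], Units.ext (LinearMap.ext fun y => by
    simp only [Units.val_mul, End.mul_apply, e']; exact e y), Units.ext (LinearMap.ext fun y => by simp [e', s])⟩

end

end Cfsg.Agent.FS
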